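import Cfsg.Agent.Blocks.FirstMain
import Cfsg.Agent.Blocks.Orth
import Cfsg.Agent.Chars2.Clifford
import Cfsg.Agent.Chars.Induced
import Cfsg.Agent.BlockChar.Reduce
import Cfsg.Agent.S0914

/-!
Blocks of a group whose radical `p`-subgroups are self-centralising modulo the centre.
-/

set_option autoImplicit false
set_option linter.unusedSectionVars false
set_option linter.style.haveILetI false

namespace Cfsg.Agent.Chars2.SLDef

open Cfsg Cfsg.Agent Cfsg.Agent.Blocks Cfsg.Agent.BlockChar
open scoped ComplexConjugate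

universe u

variable {G : Type u} [Group G] [Fintype G] {p : ℕ} [hp : Fact p.Prime]
  {M : Ideal AlgInt} [M.IsMaximal]

/-- The `p`-regular elements centralising a radical `p`-subgroup are central. -/
def RadicalCentral (p : ℕ) (G : Type u) [Group G] [Finite G] : Prop :=
  ∀ D : Subgroup G, IsPGroup p D → D ≠ ⊥ →
    (pCore p (Subgroup.normalizer (D : Set G))).map (Subgroup.normalizer (D : Set G)).subtype = D →
    ∀ y ∈ Subgroup.centralizer (D : Set G), ¬ p ∣ orderOf y → y ∈ Subgroup.center G

theorem sylow_radical (P : Sylow p G) :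
    (pCore p (Subgroup.normalizer ((P : Subgroup G) : Set G))).map
      (Subgroup.normalizer ((P : Subgroup G) : Set G)).subtype = (P : Subgroup G) := by
  refine P.is_maximal' ((Core.isPGroup_pCore p _).map _) ?_
  intro x hx
  refine ⟨⟨x, Subgroup.le_normalizer hx⟩, ?_, rfl⟩
  exact Core.le_pCore Subgroup.normal_in_normalizer
    (P.isPGroup'.comap_of_injective _ (Subgroup.subtype_injective _)) hx

theorem centralizer_le (hrad : RadicalCentral p G) (hdvd : p ∣ Nat.card G) (P : Sylow p G) :
    Subgroup.centralizer ((P : Subgroup G) : Set G) ≤ (P : Subgroup G) ⊔ Subgroup.center G := by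
  intro g hg
  obtain ⟨y, hy, hc, hx, hy'⟩ := isPPart_ppart (p := p) g
  have hxc : ppart p g ∈ Subgroup.centralizer ((P : Subgroup G) : Set G) :=
    Subgroup.pow_mem _ hg _
  have hP : (P : Subgroup G) ≠ ⊥ := P.ne_bot_of_dvd_card hdvd
  have hyc : y ∈ Subgroup.centralizer ((P : Subgroup G) : Set G) := by
    rw [show y = (ppart p g)⁻¹ * g by conv_rhs => arg 2; rw [← hy]
                                      group]
    exact Subgroup.mul_mem _ (Subgroup.inv_mem _ hxc) hg
  have hyZ := hrad P P.isPGroup' hP (sylow_radical P) y hyc hy'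
  have hxP : ppart p g ∈ (P : Subgroup G) := by
    obtain ⟨j, hj⟩ := hx
    have hX : IsPGroup p (Subgroup.zpowers (ppart p g)) :=
      IsPGroup.of_card (by rw [Nat.card_zpowers, hj])
    have hn : Subgroup.zpowers (ppart p g) ≤ Subgroup.normalizer ((P : Subgroup G) : Set G) :=
      (Subgroup.zpowers_le.2 hxc).trans (centralizer_le_normalizer _)
    have := P.is_maximal' (P.isPGroup'.to_sup_of_normal_left' hX hn) le_sup_left
    rw [← this]
    exact le_sup_right (a := (P : Subgroup G)) (Subgroup.mem_zpowers _)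
  rw [← hy]
  exact Subgroup.mul_mem_sup hxP hyZ

theorem blockDefect_zero_or_full (hpM : (p : AlgInt) ∈ M) (hrad : RadicalCentral p G)
    {B : Set (IrrCharacter G)} (hB : IsPBlock M B) :
    blockDefect p B = 0 ∨ blockDefect p B = (Nat.card G).factorization p := by
  obtain ⟨D, hD⟩ := exists_isDefectGroup hpM hB
  have hcard := card_defectGroup hpM hB hD
  by_cases h0 : D = ⊥
  · left
    rw [h0, Subgroup.card_bot] at hcard
    rcases Nat.eq_zero_or_pos (blockDefect p B) with h | h
    · exact h
    · exact absurd hcard (Nat.one_lt_pow h.ne' hp.out.one_lt).ne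
  · right
    obtain ⟨g, hg, hgD⟩ := isDefectGroup_iff.1 hD
    have hgc : g ∈ Subgroup.center G := hrad D (isPGroup_defect hD) h0 (defect_radical hpM hB hD) g
      (le_centralizer_singleton_iff.1 hgD.1) (isPRegular_of_isDefectClass hpM hB hg)
    have htop : Subgroup.centralizer ({g} : Set G) = ⊤ := by
      refine Subgroup.eq_top_iff' _ |>.2 fun x => Subgroup.mem_centralizer_singleton_iff.2 ?_
      exact (Subgroup.mem_center_iff.1 hgc x)
    have h3 := hgD.2.2
    rw [htop, Subgroup.card_top, hcard] at h3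
    exact Nat.pow_right_injective hp.out.two_le h3

/-- An irreducible character is a scalar on the centre. -/
theorem exists_scalar_center (χ : IrrCharacter G) {z : G} (hz : z ∈ Subgroup.center G) :
    ∃ e : ℂ, e ^ orderOf z = 1 ∧ ∀ g, (χ : G → ℂ) (z * g) = e * (χ : G → ℂ) g := by
  obtain ⟨d, ρ, hρ, hρe⟩ := χ.2
  haveI := hρ
  obtain ⟨e, he⟩ := Chars.scalar_of_commute ρ (ρ z) fun g => by
    rw [← map_mul, ← map_mul, Subgroup.mem_center_iff.1 hz g]
  haveI := nontrivial_of_irreducible ρ
  refine ⟨e, ?_, fun g => ?_⟩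
  · have h1 : (ρ z) ^ orderOf z = 1 := by rw [← map_pow, pow_orderOf_eq_one, map_one]
    rw [he, smul_pow, one_pow] at h1
    exact smul_left_injective ℂ (one_ne_zero (α := Module.End ℂ (Fin d → ℂ)))
      (h1.trans (one_smul ℂ _).symm)
  · rw [← congrFun hρe, ← congrFun hρe]
    simp only [Representation.character, map_mul, he, smul_mul_assoc, one_mul, map_smul, smul_eq_mul]

theorem centralChar_center (χ : IrrCharacter G) {z : G} (hz : z ∈ Subgroup.center G) :
    centralChar (χ : G → ℂ) z = (χ : G → ℂ) z / (χ : G → ℂ) 1 := by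
  have htop : Subgroup.centralizer ({z} : Set G) = ⊤ :=
    Subgroup.eq_top_iff' _ |>.2 fun x => Subgroup.mem_centralizer_singleton_iff.2
      (Subgroup.mem_center_iff.1 hz x)
  rw [centralChar, htop, Subgroup.index_top, Nat.cast_one, one_mul]

/-- Roots of unity of order prime to `p` are determined by their residues. -/
theorem root_eq_of_memI (hpM : (p : AlgInt) ∈ M) {a b : ℂ} {m : ℕ} (hm : ¬ p ∣ m)
    (ha : a ^ m = 1) (hb : b ^ m = 1) (h : MemLocalIdeal M (a - b)) : a = b := by
  have hm0 : 0 < m := Nat.pos_of_ne_zero fun h0 => hm (h0 ▸ dvd_zero p)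
  have hb0 : b ≠ 0 := fun h0 => by rw [h0, zero_pow hm0.ne'] at hb; exact zero_ne_one hb
  have hint : ∀ x : ℂ, x ^ m = 1 → IsIntegral ℤ x := fun x hx =>
    IsIntegral.of_pow hm0 (by rw [hx]; exact isIntegral_one)
  have hc : (a / b) ^ m = 1 := by rw [div_pow, ha, hb, one_div_one]
  let e : AlgInt := toAlgInt (a / b) (hint _ hc)
  have he : e ^ m = 1 := Subtype.ext (by simpa [e, toAlgInt] using hc)
  have h1 : e - 1 ∈ M := by
    rw [← memI_algInt_iff]
    have h2 := memI_mul_right h (memR_of_isIntegral (M := M) (hint b⁻¹ (by rw [inv_pow, hb, inv_one])))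
    convert h2 using 1
    simp [e, toAlgInt, sub_mul, div_eq_mul_inv, mul_inv_cancel₀ hb0]
  have h3 := congrArg (fun x : AlgInt => (x : ℂ)) (root_eq_one_of_sub_mem hpM hm he h1)
  simpa [e, toAlgInt, div_eq_one_iff_eq hb0] using h3

/-- In a group which is the product of a normal `p`-subgroup and the centre the blocks are
determined by the central characters. -/
theorem sameBlock_of_center (hpM : (p : AlgInt) ∈ M) {Q : Subgroup G} (hQn : Q.Normal)
    (hQ : IsPGroup p Q) {Z : Subgroup G} (hZc : Z ≤ Subgroup.center G) (hQZ : Q ⊔ Z = ⊤)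
    {ξ ξ' : IrrCharacter G}
    (hz : ∀ z ∈ Z, centralChar (ξ : G → ℂ) z = centralChar (ξ' : G → ℂ) z) :
    SameBlock M (ξ : G → ℂ) (ξ' : G → ℂ) := by
  intro g
  by_cases hg : ∃ x, IsConj g x ∧ x ∈ Subgroup.centralizer (Q : Set G)
  · obtain ⟨x, hgx, hx⟩ := hg
    have hxtop : x ∈ Q ⊔ Z := by rw [hQZ]; exact Subgroup.mem_top x
    haveI := hQn
    obtain ⟨u, hu, z, hzZ, rfl⟩ := Subgroup.mem_sup_of_normal_left.1 hxtop
    have hz' := hZc hzZ
    have huQ : ∀ y ∈ Q, y * u = u * y := fun y hy => by
      have h1 := Subgroup.mem_centralizer_iff.1 hx y hy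
      have h2 := Subgroup.mem_center_iff.1 hz' y
      calc y * u = y * (u * z) * z⁻¹ := by group
        _ = u * (z * y) * z⁻¹ := by rw [h1]; group
        _ = u * y := by rw [← h2]; group
    have huc : u ∈ Subgroup.center G := by
      refine Subgroup.mem_center_iff.2 fun y => ?_
      have hy : y ∈ Q ⊔ Z := by rw [hQZ]; exact Subgroup.mem_top y
      obtain ⟨a, ha, b, hb, rfl⟩ := Subgroup.mem_sup_of_normal_left.1 hy
      calc a * b * u = a * (u * b) := by rw [mul_assoc, Subgroup.mem_center_iff.1 (hZc hb) u]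
        _ = u * (a * b) := by rw [← mul_assoc, huQ a ha, mul_assoc]
    have hgz : u * z ∈ Subgroup.center G := Subgroup.mul_mem _ huc hz'
    have hg : g = u * z := by
      obtain ⟨c, hc⟩ := isConj_iff.1 hgx
      rw [← hc]
      have h3 : c * g * c⁻¹ ∈ Subgroup.center G := by
        rw [hc]; exact Subgroup.mul_mem _ huc hz'
      have h4 := Subgroup.mem_center_iff.1 h3 c⁻¹
      calc g = c⁻¹ * (c * g * c⁻¹) * c := by group
        _ = c * g * c⁻¹ * c⁻¹ * c := by rw [h4]
        _ = c * g * c⁻¹ := by group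
    obtain ⟨k, hk⟩ := hQ ⟨u, hu⟩
    have hku : u ^ p ^ k = 1 := congrArg Subtype.val hk
    have hfac : ∀ χ : IrrCharacter G, ∃ e : ℂ, e ^ p ^ k = 1 ∧
        centralChar (χ : G → ℂ) g = centralChar (χ : G → ℂ) z * e := by
      intro χ
      obtain ⟨e, he1, he⟩ := exists_scalar_center χ huc
      refine ⟨e, ?_, ?_⟩
      · obtain ⟨j, hj⟩ := orderOf_dvd_of_pow_eq_one hku
        rw [hj, pow_mul, he1, one_pow]
      · rw [hg, centralChar_center χ (Subgroup.mul_mem _ huc hz'), centralChar_center χ hz',
          he z]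
        ring
    obtain ⟨e, he1, he⟩ := hfac ξ
    obtain ⟨e', he1', he'⟩ := hfac ξ'
    rw [he, he', hz z hzZ, ← mul_sub]
    refine memI_mul_left (centralChar_memR hpM ξ' z) ?_
    have := memI_sub (root_congr_one hpM he1) (root_congr_one hpM he1')
    rwa [sub_sub_sub_cancel_right] at this
  · push Not at hg
    have hv : ∀ χ : IrrCharacter G, MemLocalIdeal M (centralChar (χ : G → ℂ) g) := fun χ => by
      rw [← omega_clsFun (Chars.isClassFunction_irr χ)]
      refine omega_memI_of_vanish hpM hQn hQ χ (isClassFunction_clsFun g) (rFun_clsFun g)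
        fun x hx => ?_
      rw [clsFun_of_not fun hc => hg x hc hx]
      exact memI_zero
    exact memI_sub (hv ξ) (hv ξ')

/-- The central character of an irreducible character, on the centre. -/
noncomputable def centerHom (χ : IrrCharacter G) : Subgroup.center G →* ℂ where
  toFun z := centralChar (χ : G → ℂ) z
  map_one' := centralChar_one _ (Chars.irr_apply_one_ne_zero χ.2)
  map_mul' z w := by
    obtain ⟨e, -, he⟩ := exists_scalar_center χ z.2
    show centralChar (χ : G → ℂ) ((z : G) * w) = _
    rw [centralChar_center χ (Subgroup.mul_mem _ z.2 w.2), centralChar_center χ z.2,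
      centralChar_center χ w.2, he w]
    have h1 := he 1
    rw [mul_one] at h1
    rw [h1, mul_div_cancel_right₀ _ (Chars.irr_apply_one_ne_zero χ.2), mul_div_assoc]

theorem centerHom_apply (χ : IrrCharacter G) (z : Subgroup.center G) :
    centerHom χ z = centralChar (χ : G → ℂ) z := rfl

theorem apply_center (χ : IrrCharacter G) (z : Subgroup.center G) :
    (χ : G → ℂ) z = (χ : G → ℂ) 1 * centerHom χ z := by
  rw [centerHom_apply, centralChar_center χ z.2,
    mul_div_cancel₀ _ (Chars.irr_apply_one_ne_zero χ.2)]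

theorem centerHom_pow (χ : IrrCharacter G) (z : Subgroup.center G) :
    centerHom χ z ^ Nat.card (Subgroup.center G) = 1 := by
  rw [← map_pow, pow_card_eq_one', map_one]

open scoped Classical in
/-- Each linear character of the centre lies below characters whose squared degrees add up to the
index. -/
theorem sum_sq_over (l : Subgroup.center G →* ℂ) :
    ∑ χ : IrrCharacter G, (if centerHom χ = l then (χ : G → ℂ) 1 ^ 2 else 0) *
      (Nat.card (Subgroup.center G) : ℂ) = (Nat.card G : ℂ) := by
  classical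
  have hsum : ∀ χ : IrrCharacter G, ∑ z : Subgroup.center G, l z⁻¹ * centerHom χ z =
      if centerHom χ = l then (Nat.card (Subgroup.center G) : ℂ) else 0 := by
    intro χ
    let f : Subgroup.center G →* ℂ :=
      { toFun := fun z => l z⁻¹ * centerHom χ z
        map_one' := by simp
        map_mul' := fun a b => by simp only [mul_inv_rev, map_mul]; ring }
    have hiff : f = 1 ↔ centerHom χ = l := by
      constructor
      · intro h
        refine MonoidHom.ext fun z => ?_
        have h2 : l z⁻¹ * centerHom χ z = 1 := DFunLike.congr_fun h z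
        calc centerHom χ z = l z * (l z⁻¹ * centerHom χ z) := by
              rw [← mul_assoc, ← map_mul, mul_inv_cancel, map_one, one_mul]
          _ = l z := by rw [h2, mul_one]
      · rintro rfl
        refine MonoidHom.ext fun z => ?_
        show centerHom χ z⁻¹ * centerHom χ z = 1
        rw [← map_mul, inv_mul_cancel, map_one]
    refine Eq.trans (sum_hom_units f) ?_
    rw [Nat.card_eq_fintype_card]
    split_ifs with ha hb <;> simp_all
  have h := Finset.sum_congr (s₁ := (Finset.univ : Finset (Subgroup.center G))) rfl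
    fun z _ => congrArg (l z⁻¹ * ·) (Chars.sum_apply_one_mul (G := G) (z : G))
  have hr : ∑ z : Subgroup.center G, l z⁻¹ * (if (z : G) = 1 then (Nat.card G : ℂ) else 0) =
      (Nat.card G : ℂ) := by
    rw [Finset.sum_eq_single 1 (fun b _ hb => by
      rw [if_neg (by simpa using hb), mul_zero]) (by simp)]
    simp
  rw [hr] at h
  simp only [Finset.mul_sum] at h
  rw [Finset.sum_comm] at h
  rw [← h]
  refine Finset.sum_congr rfl fun χ _ => ?_
  calc (if centerHom χ = l then (χ : G → ℂ) 1 ^ 2 else 0) * (Nat.card (Subgroup.center G) : ℂ)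
      = (χ : G → ℂ) 1 ^ 2 * ∑ z : Subgroup.center G, l z⁻¹ * centerHom χ z := by
        rw [hsum]; split_ifs <;> simp
    _ = _ := by
        rw [Finset.mul_sum]
        refine Finset.sum_congr rfl fun z _ => ?_
        rw [apply_center χ z]; ring

/-- Characters of the same block have the same central character on a centre of order prime to
`p`. -/
theorem centerHom_eq_of_mem (hpM : (p : AlgInt) ∈ M) (hZ : ¬ p ∣ Nat.card (Subgroup.center G))
    {B : Set (IrrCharacter G)} (hB : IsPBlock M B) {χ χ' : IrrCharacter G} (hχ : χ ∈ B)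
    (hχ' : χ' ∈ B) : centerHom χ = centerHom χ' :=
  MonoidHom.ext fun z => root_eq_of_memI hpM hZ (centerHom_pow χ z) (centerHom_pow χ' z)
    (sameBlock_of_mem hB hχ hχ' z)

theorem isDefectGroup_sylow (hpM : (p : AlgInt) ∈ M) {B : Set (IrrCharacter G)}
    (hB : IsPBlock M B) (hfull : blockDefect p B = (Nat.card G).factorization p) (P : Sylow p G) :
    IsDefectGroup p M B (P : Subgroup G) := by
  obtain ⟨D, hD⟩ := exists_isDefectGroup hpM hB
  have hcard := card_defectGroup hpM hB hD
  rw [hfull] at hcard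
  obtain ⟨x, hx⟩ := MulAction.exists_smul_eq G (Sylow.ofCard D hcard) P
  have h2 : conjSub x D = (P : Subgroup G) := by
    rw [← hx, Sylow.coe_subgroup_smul, Sylow.coe_ofCard]
    ext y
    rw [mem_conjSub, Subgroup.mem_smul_pointwise_iff_exists]
    constructor
    · exact fun h => ⟨_, h, by simp [MulAut.conj_apply, mul_assoc]⟩
    · rintro ⟨w, hw, rfl⟩
      simpa [MulAut.conj_apply, mul_assoc] using hw
  rw [← h2]
  exact isDefectGroup_conj hD x

/-- A block of full defect is determined by its central character. -/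
theorem eq_of_centerHom_eq (hpM : (p : AlgInt) ∈ M) (hrad : RadicalCentral p G)
    (hdvd : p ∣ Nat.card G) (hZ : ¬ p ∣ Nat.card (Subgroup.center G))
    {B B' : Set (IrrCharacter G)} (hB : IsPBlock M B) (hB' : IsPBlock M B')
    (hd : blockDefect p B = (Nat.card G).factorization p)
    (hd' : blockDefect p B' = (Nat.card G).factorization p)
    {χ χ' : IrrCharacter G} (hχ : χ ∈ B) (hχ' : χ' ∈ B') (he : centerHom χ = centerHom χ') :
    B = B' := by
  classical
  obtain ⟨P⟩ : Nonempty (Sylow p G) := inferInstance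
  let H : Subgroup G := (P : Subgroup G) ⊔ Subgroup.center G
  have hPH : (P : Subgroup G) ≤ H := le_sup_left
  have hZH : Subgroup.center G ≤ H := le_sup_right
  have hCH : Subgroup.centralizer ((P : Subgroup G) : Set G) ≤ H := centralizer_le hrad hdvd P
  have hHN : H ≤ Subgroup.normalizer ((P : Subgroup G) : Set G) :=
    sup_le Subgroup.le_normalizer
      ((Subgroup.center_le_centralizer _).trans (centralizer_le_normalizer _))
  have hex : ∀ {A : Set (IrrCharacter G)}, IsPBlock M A →
      blockDefect p A = (Nat.card G).factorization p →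
      ∃ b : Set (IrrCharacter H), IsInducedBlock M H b A := fun hA hdA =>
    (exists_inducing_iff hpM P.isPGroup' hPH hCH hHN hA).2 ⟨P, isDefectGroup_sylow hpM hA hdA P, 1,
      by rw [show conjS (1 : G) (P : Subgroup G) = P from
        conjS_eq_self_of_mem_normalizer (Subgroup.one_mem _)]⟩
  obtain ⟨b, hb⟩ := hex hB hd
  obtain ⟨b', hb'⟩ := hex hB' hd'
  obtain ⟨ξ, hξ⟩ := block_nonempty hb.1
  obtain ⟨ξ', hξ'⟩ := block_nonempty hb'.1
  have key : ∀ {A : Set (IrrCharacter G)} {a : Set (IrrCharacter H)} {η : IrrCharacter H}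
      {ψ : IrrCharacter G}, IsInducedBlock M H a A → η ∈ a → ψ ∈ A →
      ∀ z : Subgroup.center G, centralChar (η : H → ℂ) ⟨z, hZH z.2⟩ = centerHom ψ z := by
    intro A a η ψ hI hη hψ z
    let zH : H := ⟨z, hZH z.2⟩
    have hzc : zH ∈ Subgroup.center H :=
      Subgroup.mem_center_iff.2 fun y => Subtype.ext (Subgroup.mem_center_iff.1 z.2 y)
    have h1 := hI.2.2 η hη ψ hψ z
    have h2 : inducedCentralChar H (η : H → ℂ) z = centralChar (η : H → ℂ) zH := by
      rw [inducedCentralChar, centralChar_center η hzc,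
        finsum_mem_eq_sum_of_inter_support_eq _ (t := {zH}) ?_, Finset.sum_singleton]
      ext w
      simp only [Set.mem_inter_iff, Set.mem_setOf_eq, Finset.coe_singleton, Set.mem_singleton_iff,
        Function.mem_support]
      refine and_congr_left fun _ => ⟨fun hw => ?_, fun hw => by rw [hw]⟩
      obtain ⟨c, hc⟩ := isConj_iff.1 hw
      apply Subtype.ext
      rw [← hc, Subgroup.mem_center_iff.1 z.2 c, mul_inv_cancel_right]
    rw [h2] at h1
    refine root_eq_of_memI hpM hZ ?_ (centerHom_pow ψ z) h1
    have : zH ^ Nat.card (Subgroup.center G) = 1 := Subtype.ext (by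
      show (z : G) ^ Nat.card (Subgroup.center G) = 1
      rw [← SubmonoidClass.coe_pow, pow_card_eq_one', Subgroup.coe_one])
    rw [← centerHom_apply η ⟨zH, hzc⟩, ← map_pow,
      show (⟨zH, hzc⟩ : Subgroup.center H) ^ Nat.card (Subgroup.center G) = 1 from
        Subtype.ext this, map_one]
  have hQ : IsPGroup p ((P : Subgroup G).subgroupOf H) :=
    P.isPGroup'.comap_of_injective _ H.subtype_injective
  have hQn : ((P : Subgroup G).subgroupOf H).Normal := Subgroup.normal_subgroupOf_of_le_normalizer hHN
  have hQZ : (P : Subgroup G).subgroupOf H ⊔ (Subgroup.center G).subgroupOf H = ⊤ := by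
    rw [← Subgroup.subgroupOf_sup hPH hZH, Subgroup.subgroupOf_self]
  have hsame : SameBlock M (ξ : H → ℂ) (ξ' : H → ℂ) := by
    refine sameBlock_of_center hpM hQn hQ (Z := (Subgroup.center G).subgroupOf H) ?_ hQZ ?_
    · intro z hz
      exact Subgroup.mem_center_iff.2 fun y => Subtype.ext (Subgroup.mem_center_iff.1 hz y)
    · intro z hz
      have h1 := key hb hξ hχ ⟨z, hz⟩
      have h2 := key hb' hξ' hχ' ⟨z, hz⟩
      exact h1.trans ((DFunLike.congr_fun he _).trans h2.symm)
  have hbb : b = b' := blocks_eq_of_inter hb.1 hb'.1 (mem_of_sameBlock hb.1 hξ hsame) hξ'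
  subst hbb
  exact isInducedBlock_unique H hpM hb hb'

theorem degree_full_of_defect_zero {B : Set (IrrCharacter G)} (hB : blockDefect p B = 0)
    {χ : IrrCharacter G} (hχ : χ ∈ B) :
    (charDegree (χ : G → ℂ)).factorization p = (Nat.card G).factorization p := by
  refine le_antisymm (charDegree_factorization_le χ) ?_
  exact (Nat.sub_eq_zero_iff_le.1 hB).trans (Nat.sInf_le (Set.mem_image_of_mem _ hχ))

theorem not_dvd_div_of_degree_full {χ : IrrCharacter G}
    (h : (charDegree (χ : G → ℂ)).factorization p = (Nat.card G).factorization p) :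
    ¬ p ∣ Nat.card G / charDegree (χ : G → ℂ) := by
  intro hd
  have hpos : 0 < Nat.card G / charDegree (χ : G → ℂ) :=
    Nat.div_pos (Nat.le_of_dvd Nat.card_pos (charDegree_dvd χ.2)) (charDegree_eq χ.2).2
  have := hp.out.factorization_pos_of_dvd hpos.ne' hd
  rw [Nat.factorization_div (charDegree_dvd χ.2)] at this
  simp [h] at this

/-- The number of blocks. -/
theorem card_blocks (hM : IsPModular p M) (hrad : RadicalCentral p G) (hdvd : p ∣ Nat.card G)
    (hZ : ¬ p ∣ Nat.card (Subgroup.center G))
    (hone : Nat.card {B : Set (IrrCharacter G) // IsPBlock M B ∧ blockDefect p B = 0} = 1) :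
    Nat.card {B : Set (IrrCharacter G) // IsPBlock M B} = Nat.card (Subgroup.center G) + 1 := by
  classical
  have hpM := hM.2.2
  have ha : 0 < (Nat.card G).factorization p :=
    hp.out.factorization_pos_of_dvd Nat.card_pos.ne' hdvd
  let F := {B : Set (IrrCharacter G) // IsPBlock M B ∧
    blockDefect p B = (Nat.card G).factorization p}
  let Z0 := {B : Set (IrrCharacter G) // IsPBlock M B ∧ blockDefect p B = 0}
  haveI : Finite (IrrCharacter G) := Chars.irr_finite
  have hsplit : Nat.card {B : Set (IrrCharacter G) // IsPBlock M B} = Nat.card F + Nat.card Z0 := by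
    rw [← Nat.card_sum]
    refine Nat.card_congr
      { toFun := fun B => if h : blockDefect p B.1 = 0 then Sum.inr ⟨B.1, B.2, h⟩
          else Sum.inl ⟨B.1, B.2, (blockDefect_zero_or_full hpM hrad B.2).resolve_left h⟩
        invFun := Sum.elim (fun B => ⟨B.1, B.2.1⟩) (fun B => ⟨B.1, B.2.1⟩)
        left_inv := fun B => by by_cases h : blockDefect p B.1 = 0 <;> simp [h]
        right_inv := ?_ }
    rintro (⟨B, hB, h⟩ | ⟨B, hB, h⟩)
    · simp [show blockDefect p B ≠ 0 by omega]
    · simp [h]
  rw [hsplit, hone]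
  congr 1
  letI : CommGroup (Subgroup.center G) :=
    { mul_comm := fun a b => Subtype.ext (Subgroup.mem_center_iff.1 b.2 a) }
  have hl : Nat.card (Subgroup.center G →* ℂ) = Nat.card (Subgroup.center G) := by
    rw [← CommGroup.card_monoidHom_of_hasEnoughRootsOfUnity (Subgroup.center G) ℂ]
    exact Nat.card_congr
      { toFun := fun f => f.toHomUnits
        invFun := fun f => (Units.coeHom ℂ).comp f
        left_inv := fun f => by ext z; rfl
        right_inv := fun f => by ext z; rfl }
  rw [← hl]
  let Φ : F → (Subgroup.center G →* ℂ) := fun B =>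
    centerHom (block_nonempty B.2.1).choose
  refine Nat.card_eq_of_bijective Φ ⟨fun B B' h => ?_, fun l => ?_⟩
  · exact Subtype.ext (eq_of_centerHom_eq hpM hrad hdvd hZ B.2.1 B'.2.1 B.2.2 B'.2.2
      (block_nonempty B.2.1).choose_spec (block_nonempty B'.2.1).choose_spec h)
  -- surjectivity
  by_contra hno
  push Not at hno
  have hzero : ∀ χ : IrrCharacter G, centerHom χ = l →
      blockDefect p (blockOf M (χ : G → ℂ)) = 0 := by
    intro χ hχ
    refine (blockDefect_zero_or_full hpM hrad (isPBlock_blockOf χ)).resolve_right fun hf => ?_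
    refine hno ⟨_, isPBlock_blockOf χ, hf⟩ ?_
    rw [← hχ]
    exact centerHom_eq_of_mem hpM hZ (isPBlock_blockOf χ)
      (block_nonempty (isPBlock_blockOf χ)).choose_spec (mem_blockOf_self χ)
  obtain ⟨hsub, -⟩ := Nat.card_eq_one_iff_unique.1 hone
  have huniq : ∀ χ χ' : IrrCharacter G, centerHom χ = l → centerHom χ' = l → χ = χ' := by
    intro χ χ' h h'
    have hBB : blockOf M (χ : G → ℂ) = blockOf M (χ' : G → ℂ) :=
      congrArg Subtype.val (hsub.elim ⟨_, isPBlock_blockOf χ, hzero χ h⟩
        ⟨_, isPBlock_blockOf χ', hzero χ' h'⟩)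
    have hdeg := not_dvd_div_of_degree_full (degree_full_of_defect_zero (hzero χ h)
      (mem_blockOf_self χ))
    have h1 := (Cfsg.Agent.S0914.result p M hM χ).1 hdeg
    have h2 : χ' ∈ blockOf M (χ : G → ℂ) := hBB ▸ mem_blockOf_self χ'
    rw [h1] at h2
    exact h2.symm
  have hs := sum_sq_over (G := G) l
  by_cases hex : ∃ χ : IrrCharacter G, centerHom χ = l
  · obtain ⟨χ, hχ⟩ := hex
    rw [Finset.sum_eq_single χ (fun ψ _ hne => by
      rw [if_neg fun h => hne (huniq ψ χ h hχ), zero_mul]) (by simp), if_pos hχ,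
      (charDegree_eq χ.2).1] at hs
    have hn : charDegree (χ : G → ℂ) ^ 2 * Nat.card (Subgroup.center G) = Nat.card G := by
      exact_mod_cast hs
    have h4 := congrArg (fun m => m.factorization p) hn
    simp only [Nat.factorization_mul (pow_ne_zero 2 (charDegree_eq χ.2).2.ne') Nat.card_pos.ne',
      Finsupp.add_apply, Nat.factorization_pow, Finsupp.smul_apply, smul_eq_mul,
      Nat.factorization_eq_zero_of_not_dvd hZ,
      degree_full_of_defect_zero (hzero χ hχ) (mem_blockOf_self χ)] at h4
    omega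
  · push Not at hex
    rw [Finset.sum_eq_zero fun ψ _ => by rw [if_neg (hex ψ), zero_mul]] at hs
    exact (Nat.cast_ne_zero.2 Nat.card_pos.ne') hs.symm

end Cfsg.Agent.Chars2.SLDef
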