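import Cfsg.Agent.Blocks.Brauer
import Cfsg.Agent.BlockChar.Reduce
import Mathlib.RepresentationTheory.Basic

/-!
Reduction of a representation of `p`-defect zero: it is irreducible and split off by a central
element of the group algebra over the residue field.
-/

set_option autoImplicit false
set_option linter.unusedSectionVars false
set_option linter.style.haveILetI false
set_option synthInstance.maxHeartbeats 400000
set_option maxHeartbeats 1000000

namespace Cfsg.Agent.Chars2.SLDef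

open Cfsg Cfsg.Agent Cfsg.Agent.Blocks Cfsg.Agent.BlockChar Matrix
open scoped ComplexConjugate

universe u

variable {G : Type u} [Group G] [Fintype G] {p : ℕ} [Fact p.Prime] {M : Ideal AlgInt} [M.IsMaximal]
  {d : ℕ} (ρ : G →* Matrix (Fin d) (Fin d) ℂ) (hR : ∀ g i j, MemLocalRing M (ρ g i j))

/-- The reduced matrices. -/
noncomputable def resMat : G →* Matrix (Fin d) (Fin d) (Res M) where
  toFun g := (ρ g).map (res M)
  map_one' := by
    rw [map_one]
    exact Matrix.map_one _ res_zero res_one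
  map_mul' a b := by
    ext i j
    rw [map_mul, Matrix.map_apply, Matrix.mul_apply, Matrix.mul_apply,
      res_sum _ _ fun k _ => memR_mul (hR a i k) (hR b k j)]
    exact Finset.sum_congr rfl fun k _ => res_mul (hR a i k) (hR b k j)

/-- The reduced representation. -/
noncomputable def resRep : Representation (Res M) G (Fin d → Res M) where
  toFun g := Matrix.mulVecLin (resMat ρ hR g)
  map_one' := by rw [map_one, Matrix.mulVecLin_one]; rfl
  map_mul' a b := by rw [map_mul, Matrix.mulVecLin_mul]; rfl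

theorem resRep_apply (g : G) (x : Fin d → Res M) : resRep ρ hR g x = resMat ρ hR g *ᵥ x := rfl

theorem sum_resRep (f : G → Res M) :
    ∑ g, f g • resRep ρ hR g = Matrix.mulVecLin (∑ g, f g • resMat ρ hR g) := by
  refine LinearMap.ext fun x => ?_
  rw [Matrix.mulVecLin_apply, Matrix.sum_mulVec, LinearMap.sum_apply]
  exact Finset.sum_congr rfl fun g _ => by
    rw [LinearMap.smul_apply, resRep_apply, Matrix.smul_mulVec]

variable {ρ}

/-- The Schur relations. -/
theorem schur_sum (hd : 0 < d)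
    (hscal : ∀ T : Matrix (Fin d) (Fin d) ℂ, (∀ g, T * ρ g = ρ g * T) → ∃ c : ℂ, T = c • 1)
    (a b i j : Fin d) :
    ∑ g, ρ g a b * ρ g⁻¹ j i =
      if a = i ∧ b = j then (Nat.card G : ℂ) / d else 0 := by
  set E : Matrix (Fin d) (Fin d) ℂ := Matrix.single b j 1
  obtain ⟨c, hc⟩ := hscal (∑ g, ρ g * E * ρ g⁻¹) (fun h => by
    rw [Finset.sum_mul, Finset.mul_sum]
    refine (Fintype.sum_equiv (Equiv.mulLeft h) _ _ fun g => ?_).symm
    simp only [Equiv.coe_mulLeft, _root_.mul_inv_rev, map_mul, mul_assoc]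
    rw [← map_mul ρ h⁻¹ h, inv_mul_cancel, map_one, mul_one])
  have hent : ∀ g, (ρ g * E * ρ g⁻¹) a i = ρ g a b * ρ g⁻¹ j i := fun g => by
    rw [Matrix.mul_apply, Finset.sum_eq_single j]
    · simp [E]
    · intro s _ hs; simp [E, Matrix.mul_single_apply_of_ne _ _ _ _ _ hs]
    · simp
  have h1 := congrFun (congrFun hc a) i
  rw [Matrix.sum_apply, Finset.sum_congr rfl fun g _ => hent g] at h1
  have h2 := congrArg Matrix.trace hc
  rw [Matrix.trace_sum, Matrix.trace_smul, Matrix.trace_one, Fintype.card_fin, smul_eq_mul,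
    Finset.sum_congr rfl (g := fun _ => E.trace) fun g _ => by
      rw [Matrix.trace_mul_cycle, ← map_mul, inv_mul_cancel, map_one, Matrix.one_mul],
    Finset.sum_const, Finset.card_univ, nsmul_eq_mul, ← Nat.card_eq_fintype_card] at h2
  rw [h1, Matrix.smul_apply, smul_eq_mul, Matrix.one_apply]
  have hdne : (d : ℂ) ≠ 0 := by exact_mod_cast hd.ne'
  by_cases hbj : b = j
  · subst hbj
    rw [Matrix.trace_single_eq_same, mul_one] at h2
    by_cases hai : a = i
    · rw [if_pos hai, if_pos ⟨hai, rfl⟩, mul_one, eq_div_iff hdne, h2]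
    · rw [if_neg hai, if_neg (fun h => hai h.1), mul_zero]
  · rw [Matrix.trace_single_eq_of_ne _ _ _ hbj, mul_zero, eq_comm, mul_eq_zero] at h2
    rw [h2.resolve_right hdne, zero_mul, if_neg fun h => hbj h.2]

variable (hpM : (p : AlgInt) ∈ M) {m : ℕ} (hm : Nat.card G = d * m) (hpm : ¬ p ∣ m)

include hpM hpm in
theorem memR_inv_mul {x : ℂ} (hx : MemLocalRing M x) : MemLocalRing M ((m : ℂ)⁻¹ * x) :=
  memR_mul (memR_inv_natCast hpM hpm) hx

include hpM hm hpm in
theorem single_mem_span (hd : 0 < d)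
    (hscal : ∀ T : Matrix (Fin d) (Fin d) ℂ, (∀ g, T * ρ g = ρ g * T) → ∃ c : ℂ, T = c • 1)
    (i j : Fin d) :
    ∑ g, res M ((m : ℂ)⁻¹ * ρ g⁻¹ j i) • resMat ρ hR g = Matrix.single i j 1 := by
  ext a b
  rw [Matrix.sum_apply]
  have hm0 : (m : ℂ) ≠ 0 := by
    have : m ≠ 0 := fun h => hpm (h ▸ dvd_zero p)
    exact_mod_cast this
  have hd0 : (d : ℂ) ≠ 0 := by exact_mod_cast hd.ne'
  have h1 : ∑ g, ((m : ℂ)⁻¹ * ρ g⁻¹ j i) * ρ g a b = if a = i ∧ b = j then 1 else 0 := by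
    have := schur_sum hd hscal a b i j
    rw [hm, Nat.cast_mul] at this
    rw [Finset.sum_congr rfl (g := fun g => (m : ℂ)⁻¹ * (ρ g a b * ρ g⁻¹ j i)) fun g _ => by ring,
      ← Finset.mul_sum, this]
    split_ifs
    · field_simp
    · simp
  calc ∑ g, (res M ((m : ℂ)⁻¹ * ρ g⁻¹ j i) • resMat ρ hR g) a b
      = ∑ g, res M (((m : ℂ)⁻¹ * ρ g⁻¹ j i) * ρ g a b) := Finset.sum_congr rfl fun g _ => by
        rw [Matrix.smul_apply, smul_eq_mul, res_mul (memR_inv_mul hpM hpm (hR g⁻¹ j i)) (hR g a b)]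
        rfl
    _ = res M (∑ g, ((m : ℂ)⁻¹ * ρ g⁻¹ j i) * ρ g a b) :=
        (res_sum _ _ fun g _ => memR_mul (memR_inv_mul hpM hpm (hR g⁻¹ j i)) (hR g a b)).symm
    _ = _ := by
      rw [h1, Matrix.single_apply]
      by_cases h : a = i ∧ b = j
      · rw [if_pos h, if_pos ⟨h.1.symm, h.2.symm⟩, res_one]
      · rw [if_neg h, if_neg fun h' => h ⟨h'.1.symm, h'.2.symm⟩, res_zero]

include hpM hm hpm in
theorem resRep_irr (hd : 0 < d)
    (hscal : ∀ T : Matrix (Fin d) (Fin d) ℂ, (∀ g, T * ρ g = ρ g * T) → ∃ c : ℂ, T = c • 1)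
    (S : Submodule (Res M) (Fin d → Res M)) (hS : ∀ g, ∀ x ∈ S, resRep ρ hR g x ∈ S) :
    S = ⊥ ∨ S = ⊤ := by
  classical
  rcases eq_or_ne S ⊥ with h | h
  · exact Or.inl h
  refine Or.inr ?_
  obtain ⟨x, hx, hx0⟩ := Submodule.exists_mem_ne_zero_of_ne_bot h
  obtain ⟨j, hj⟩ := Function.ne_iff.1 hx0
  have hbasis : ∀ i, Pi.single i (1 : Res M) ∈ S := fun i => by
    have h1 : Matrix.single i j (1 : Res M) *ᵥ x ∈ S := by
      rw [← single_mem_span hR hpM hm hpm hd hscal i j, Matrix.sum_mulVec]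
      refine S.sum_mem fun g _ => ?_
      rw [Matrix.smul_mulVec]
      exact S.smul_mem _ (hS g x hx)
    have h2 := S.smul_mem (x j)⁻¹ h1
    convert h2 using 1
    ext a
    rcases eq_or_ne a i with rfl | ha
    · simp [Matrix.single_mulVec, inv_mul_cancel₀ (show x j ≠ 0 from hj)]
    · simp [Matrix.single_mulVec, ha]
  refine Submodule.eq_top_iff'.2 fun y => ?_
  rw [pi_eq_sum_univ' y]
  exact S.sum_mem fun i _ => S.smul_mem _ (hbasis i)

variable {χ : IrrCharacter G} (htr : ∀ g, (ρ g).trace = (χ : G → ℂ) g)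

include hpM hm hpm htr in
theorem sum_char_resRep (hd : 0 < d)
    (hscal : ∀ T : Matrix (Fin d) (Fin d) ℂ, (∀ g, T * ρ g = ρ g * T) → ∃ c : ℂ, T = c • 1) :
    ∑ g, res M ((m : ℂ)⁻¹ * (χ : G → ℂ) g⁻¹) • resRep ρ hR g = 1 := by
  rw [sum_resRep]
  have h : ∑ g, res M ((m : ℂ)⁻¹ * (χ : G → ℂ) g⁻¹) • resMat ρ hR g = 1 := by
    have h1 : ∀ g, res M ((m : ℂ)⁻¹ * (χ : G → ℂ) g⁻¹) = ∑ i, res M ((m : ℂ)⁻¹ * ρ g⁻¹ i i) := by
      intro g
      rw [← res_sum _ _ fun i _ => memR_inv_mul hpM hpm (hR g⁻¹ i i), ← Finset.mul_sum, ← htr]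
      rfl
    simp only [h1, Finset.sum_smul]
    rw [Finset.sum_comm, Finset.sum_congr rfl fun i _ => single_mem_span hR hpM hm hpm hd hscal i i]
    ext a b
    rw [Matrix.sum_apply, Finset.sum_eq_single a (fun i _ hi => by simp [Matrix.single_apply, hi])
      (by simp)]
    simp [Matrix.single_apply, Matrix.one_apply]
  rw [h, Matrix.mulVecLin_one]
  rfl

include hpM hpm in
/-- The element splitting off `χ` kills the other characters. -/
theorem sum_char_resRep_of_ne {d' : ℕ} {ρ' : G →* Matrix (Fin d') (Fin d') ℂ}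
    (hR' : ∀ g i j, MemLocalRing M (ρ' g i j)) (hd' : 0 < d') {χ' : IrrCharacter G}
    (htr' : ∀ g, (ρ' g).trace = (χ' : G → ℂ) g) (h1' : (χ' : G → ℂ) 1 = d')
    (hscal' : ∀ T : Matrix (Fin d') (Fin d') ℂ, (∀ g, T * ρ' g = ρ' g * T) → ∃ c : ℂ, T = c • 1)
    (hne : χ' ≠ χ) :
    ∑ g, res M ((m : ℂ)⁻¹ * (χ : G → ℂ) g⁻¹) • resRep ρ' hR' g = 0 := by
  rw [sum_resRep]
  have h : ∑ g, res M ((m : ℂ)⁻¹ * (χ : G → ℂ) g⁻¹) • resMat ρ' hR' g = 0 := by
    ext a b
    rw [Matrix.sum_apply]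
    let f : G → ℂ := fun g => (m : ℂ)⁻¹ * (χ : G → ℂ) g⁻¹
    have hf : IsClassFunction G f := fun x y => by
      show (m : ℂ)⁻¹ * (χ : G → ℂ) (y * x * y⁻¹)⁻¹ = _
      rw [show (y * x * y⁻¹)⁻¹ = y * x⁻¹ * y⁻¹ by group, Chars.isClassFunction_irr χ]
    have hom : omega (χ' : G → ℂ) f = 0 := by
      have h2 := Chars.classInner_irrCharacter χ' χ
      rw [if_neg hne, Chars.classInner_def] at h2
      have h3 := (mul_eq_zero.1 h2).resolve_left (inv_ne_zero Chars.card_ne_zero)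
      rw [omega, Finset.sum_congr rfl
        (g := fun g => (m : ℂ)⁻¹ * ((χ' : G → ℂ) g * conj ((χ : G → ℂ) g))) fun g _ => by
          show (m : ℂ)⁻¹ * (χ : G → ℂ) g⁻¹ * _ = _
          rw [Chars.char_inv_eq_conj (Chars.irr_isCharacter χ)]; ring,
        ← Finset.mul_sum, h3, mul_zero, zero_div]
    have h4 := congrFun (congrFun (act_eq_omega ρ' htr' hscal' hd' h1' hf) a) b
    rw [act_apply, hom, zero_smul, Matrix.zero_apply] at h4
    calc ∑ g, (res M (f g) • resMat ρ' hR' g) a b = ∑ g, res M (f g * ρ' g a b) :=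
          Finset.sum_congr rfl fun g _ => by
            rw [Matrix.smul_apply, smul_eq_mul,
              res_mul (memR_inv_mul hpM hpm (irr_memR χ g⁻¹)) (hR' g a b)]
            rfl
      _ = res M (∑ g, f g * ρ' g a b) :=
          (res_sum _ _ fun g _ => memR_mul (memR_inv_mul hpM hpm (irr_memR χ g⁻¹)) (hR' g a b)).symm
      _ = _ := by rw [h4, res_zero]; rfl
  rw [h]
  exact map_zero Matrix.toLin'

end Cfsg.Agent.Chars2.SLDef
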