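import Cfsg.Agent.Chars2.SLDef.BlocksGeneric
import Mathlib.LinearAlgebra.Matrix.SpecialLinearGroup
import Mathlib.LinearAlgebra.Matrix.SchurComplement

/-!
The radical `p`-subgroups of a special linear group in characteristic `p`.
-/

set_option autoImplicit false
set_option linter.unusedSectionVars false

namespace Cfsg.Agent.Chars2.SLDef

open Cfsg Cfsg.Agent
open Matrix
open scoped MatrixGroups

universe u

variable {F : Type u} [Field F] [Fintype F] {n : ℕ} {p : ℕ} [hp : Fact p.Prime] [CharP F p]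

local notation "SL" => Matrix.SpecialLinearGroup (Fin n) F

/-- The ascending series of fixed vectors. -/
noncomputable def fixSeries (D : Subgroup SL) : ℕ → Submodule F (Fin n → F)
  | 0 => ⊥
  | m + 1 => ⨅ d : D, (fixSeries D m).comap (Matrix.mulVecLin ((d : SL) : Matrix (Fin n) (Fin n) F) - LinearMap.id)

theorem fixSeries_zero (D : Subgroup SL) : fixSeries D 0 = ⊥ := rfl

theorem mem_fixSeries_succ {D : Subgroup SL} {m : ℕ} {v : Fin n → F} :
    v ∈ fixSeries D (m + 1) ↔
      ∀ d ∈ D, (d : Matrix (Fin n) (Fin n) F) *ᵥ v - v ∈ fixSeries D m := by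
  simp [fixSeries, Submodule.mem_iInf]

theorem fixSeries_le_succ (D : Subgroup SL) : ∀ m, fixSeries D m ≤ fixSeries D (m + 1)
  | 0 => bot_le
  | m + 1 => fun _ hv => mem_fixSeries_succ.2 fun d hd =>
      fixSeries_le_succ D m (mem_fixSeries_succ.1 hv d hd)

theorem fixSeries_mono (D : Subgroup SL) : Monotone (fixSeries D) :=
  monotone_nat_of_le_succ (fixSeries_le_succ D)

theorem fixSeries_stable {D : Subgroup SL} {g : SL}
    (hg : ∀ m, ∀ v ∈ fixSeries D (m + 1), (g : Matrix (Fin n) (Fin n) F) *ᵥ v - v ∈ fixSeries D m)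
    {m : ℕ} {v : Fin n → F} (hv : v ∈ fixSeries D m) :
    (g : Matrix (Fin n) (Fin n) F) *ᵥ v ∈ fixSeries D m := by
  have h := fixSeries_le_succ D m hv
  simpa using Submodule.add_mem _ (hg m v h) hv

theorem fixSeries_lt {D : Subgroup SL} (hD : IsPGroup p D) {m : ℕ} (hm : fixSeries D m ≠ ⊤) :
    fixSeries D m < fixSeries D (m + 1) := by
  classical
  set W := fixSeries D m with hW
  have hst : ∀ d : D, W ≤ W.comap (Matrix.mulVecLin ((d : SL) : Matrix (Fin n) (Fin n) F)) :=
    fun d v hv => fixSeries_stable (g := (d : SL))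
      (fun k w hw => mem_fixSeries_succ.1 hw (d : SL) d.2) hv
  let act : MulAction D ((Fin n → F) ⧸ W) :=
    { smul := fun d x => W.mapQ W _ (hst d) x
      one_smul := fun x => Quotient.inductionOn' x fun v => by
        show W.mapQ W _ (hst 1) (Submodule.Quotient.mk v) = Submodule.Quotient.mk v
        rw [Submodule.mapQ_apply]; simp
      mul_smul := fun a b x => Quotient.inductionOn' x fun v => by
        show W.mapQ W _ (hst (a * b)) (Submodule.Quotient.mk v) =
          W.mapQ W _ (hst a) (W.mapQ W _ (hst b) (Submodule.Quotient.mk v))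
        simp [Submodule.mapQ_apply, Matrix.mulVec_mulVec] }
  haveI : Nontrivial ((Fin n → F) ⧸ W) := Submodule.Quotient.nontrivial_iff.2 hm
  haveI : Finite ((Fin n → F) ⧸ W) := Quotient.finite _
  have hcard : p ∣ Nat.card ((Fin n → F) ⧸ W) := by
    rw [Module.natCard_eq_pow_finrank (K := F)]
    refine dvd_pow ?_ Module.finrank_pos.ne'
    rw [Nat.card_eq_fintype_card]
    obtain ⟨k, hpk, hk⟩ := FiniteField.card F p
    rw [hk]; exact dvd_pow_self p k.ne_zero
  obtain ⟨x, hx, hne⟩ := hD.exists_fixed_point_of_prime_dvd_card_of_fixed_point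
    ((Fin n → F) ⧸ W) hcard (a := 0) (fun d => map_zero (W.mapQ W _ (hst d)))
  obtain ⟨v, rfl⟩ := Submodule.Quotient.mk_surjective W x
  refine lt_of_le_of_ne (fixSeries_le_succ D m) fun h => hne ?_
  have hv : v ∈ W := by
    show v ∈ W
    rw [h]
    refine mem_fixSeries_succ.2 fun d hd => ?_
    refine (Submodule.Quotient.eq W).1 ?_
    exact hx ⟨d, hd⟩
  exact ((Submodule.Quotient.mk_eq_zero W).2 hv).symm

theorem exists_fixSeries_top {D : Subgroup SL} (hD : IsPGroup p D) : ∃ L, fixSeries D L = ⊤ := by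
  by_contra h
  push Not at h
  have : ∀ m, m ≤ Module.finrank F (fixSeries D m) := by
    intro m
    induction m with
    | zero => simp
    | succ m ih => exact Nat.lt_of_le_of_lt ih (Submodule.finrank_lt_finrank_of_lt (fixSeries_lt hD (h m)))
  have h1 := (this (n + 1)).trans (Submodule.finrank_le _)
  rw [Module.finrank_fin_fun] at h1
  omega

/-- The elements shifting the series down. -/
noncomputable def flagRadical (D : Subgroup SL) : Subgroup SL :=
  let S : Submonoid SL :=
    { carrier := {g | ∀ m, ∀ v ∈ fixSeries D (m + 1),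
        (g : Matrix (Fin n) (Fin n) F) *ᵥ v - v ∈ fixSeries D m}
      one_mem' := fun m v _ => by simp
      mul_mem' := fun {a b} ha hb m v hv => by
        rw [Matrix.SpecialLinearGroup.coe_mul, ← Matrix.mulVec_mulVec,
          show (a : Matrix (Fin n) (Fin n) F) *ᵥ ((b : Matrix (Fin n) (Fin n) F) *ᵥ v) - v =
            (a : Matrix (Fin n) (Fin n) F) *ᵥ ((b : Matrix (Fin n) (Fin n) F) *ᵥ v - v) +
              ((a : Matrix (Fin n) (Fin n) F) *ᵥ v - v) by rw [Matrix.mulVec_sub]; abel]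
        exact Submodule.add_mem _ (fixSeries_stable ha (hb m v hv)) (ha m v hv) }
  { S with
    inv_mem' := fun {g} hg => by
      rw [show g⁻¹ = g ^ (orderOf g - 1) from inv_eq_of_mul_eq_one_right (by
        rw [← pow_succ', Nat.sub_add_cancel (orderOf_pos g), pow_orderOf_eq_one])]
      exact S.pow_mem hg _ }

theorem mem_flagRadical {D : Subgroup SL} {g : SL} : g ∈ flagRadical D ↔
    ∀ m, ∀ v ∈ fixSeries D (m + 1), (g : Matrix (Fin n) (Fin n) F) *ᵥ v - v ∈ fixSeries D m :=
  Iff.rfl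

theorem le_flagRadical (D : Subgroup SL) : D ≤ flagRadical D :=
  fun d hd => mem_flagRadical.2 fun _ _ hv => mem_fixSeries_succ.1 hv d hd

theorem isPGroup_flagRadical {D : Subgroup SL} (hD : IsPGroup p D) :
    IsPGroup p (flagRadical D) := by
  obtain ⟨L, hL⟩ := exists_fixSeries_top hD
  rintro ⟨g, hg⟩
  refine ⟨L, Subtype.ext (Subtype.ext ?_)⟩
  show ((g ^ p ^ L : SL) : Matrix (Fin n) (Fin n) F) = 1
  set A : Matrix (Fin n) (Fin n) F := (g : Matrix (Fin n) (Fin n) F) with hA
  have key : ∀ k m, ∀ v ∈ fixSeries D m, (A - 1) ^ k *ᵥ v ∈ fixSeries D (m - k) := by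
    intro k
    induction k with
    | zero => intro m v hv; simpa using hv
    | succ k ih =>
      intro m v hv
      rw [pow_succ, ← Matrix.mulVec_mulVec]
      rcases m with _ | m
      · rw [fixSeries_zero, Submodule.mem_bot] at hv; subst hv; simp
      · have h1 := ih m _ (hg m v hv)
        rw [Matrix.sub_mulVec, Matrix.one_mulVec]
        simpa [Nat.add_sub_add_right] using h1
  have hle : L ≤ p ^ L := (Nat.lt_pow_self hp.out.one_lt).le
  have h0 : (A - 1) ^ p ^ L = 0 := by
    refine Matrix.ext_of_mulVec_single fun i => ?_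
    have := key (p ^ L) L (Pi.single i 1) (by rw [hL]; trivial)
    rw [Nat.sub_eq_zero_of_le hle, fixSeries_zero, Submodule.mem_bot] at this
    rw [this, Matrix.zero_mulVec]
  haveI : Nonempty (Fin n) ∨ True := Or.inr trivial
  rcases isEmpty_or_nonempty (Fin n) with h | h
  · exact Subsingleton.elim _ _
  rw [sub_pow_char_pow_of_commute p L (Commute.one_right A), one_pow, sub_eq_zero] at h0
  rw [Matrix.SpecialLinearGroup.coe_pow]
  exact h0

theorem fixSeries_normalizer {D : Subgroup SL} :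
    ∀ (m : ℕ) {x : SL}, x ∈ Subgroup.normalizer (D : Set SL) →
      ∀ v ∈ fixSeries D m, (x : Matrix (Fin n) (Fin n) F) *ᵥ v ∈ fixSeries D m
  | 0, x, _, v, hv => by
    rw [fixSeries_zero, Submodule.mem_bot] at hv ⊢
    rw [hv, Matrix.mulVec_zero]
  | m + 1, x, hx, v, hv => mem_fixSeries_succ.2 fun d hd => by
    have hd' : x⁻¹ * d * x ∈ D := (Subgroup.mem_set_normalizer_iff''.1 hx d).1 hd
    have h1 := fixSeries_normalizer m hx _ (mem_fixSeries_succ.1 hv _ hd')
    rwa [Matrix.mulVec_sub, Matrix.mulVec_mulVec, ← Matrix.SpecialLinearGroup.coe_mul,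
      show x * (x⁻¹ * d * x) = d * x by group, Matrix.SpecialLinearGroup.coe_mul,
      ← Matrix.mulVec_mulVec] at h1

/-- A radical subgroup is the radical of its series. -/
theorem flagRadical_eq {D : Subgroup SL} (hD : IsPGroup p D)
    (hrad : (pCore p (Subgroup.normalizer (D : Set SL))).map
      (Subgroup.normalizer (D : Set SL)).subtype = D) : flagRadical D = D := by
  classical
  have hnorm : ((flagRadical D).subgroupOf (Subgroup.normalizer (D : Set SL))).Normal := ⟨by
    rintro ⟨g, hg⟩ hgR ⟨x, hx⟩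
    rw [Subgroup.mem_subgroupOf] at hgR ⊢
    refine mem_flagRadical.2 fun m v hv => ?_
    have h1 := mem_flagRadical.1 hgR m _
      (fixSeries_normalizer (m + 1) (Subgroup.inv_mem _ hx) v hv)
    have h2 := fixSeries_normalizer m hx _ h1
    rw [Matrix.mulVec_sub, Matrix.mulVec_mulVec, Matrix.mulVec_mulVec, Matrix.mulVec_mulVec,
      ← Matrix.SpecialLinearGroup.coe_mul, ← Matrix.SpecialLinearGroup.coe_mul,
      ← Matrix.SpecialLinearGroup.coe_mul, mul_inv_cancel, Matrix.SpecialLinearGroup.coe_one,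
      Matrix.one_mulVec] at h2
    simpa [mul_assoc] using h2⟩
  have hle : ∀ g ∈ flagRadical D, g ∈ Subgroup.normalizer (D : Set SL) → g ∈ D := by
    intro g hg hgN
    rw [← hrad]
    exact ⟨⟨g, hgN⟩, Core.le_pCore hnorm
      ((isPGroup_flagRadical hD).comap_of_injective _ (Subgroup.subtype_injective _)) hg, rfl⟩
  refine le_antisymm ?_ (le_flagRadical D)
  haveI := (isPGroup_flagRadical hD).isNilpotent
  by_contra hne
  have hlt : D.subgroupOf (flagRadical D) < ⊤ :=
    lt_top_iff_ne_top.2 fun h => hne (Subgroup.subgroupOf_eq_top.1 h)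
  obtain ⟨⟨g, hg⟩, hgn, hgD⟩ := SetLike.exists_of_lt (normalizerCondition_of_isNilpotent _ hlt)
  refine hgD (hle g hg ?_)
  refine Subgroup.mem_set_normalizer_iff.2 fun a => ⟨fun ha => ?_, fun ha => ?_⟩
  · have := (Subgroup.mem_set_normalizer_iff.1 hgn ⟨a, le_flagRadical D ha⟩).1 ha
    exact this
  · have hR := le_flagRadical D ha
    have ha' : a ∈ flagRadical D := by
      simpa [mul_assoc] using
        Subgroup.mul_mem _ (Subgroup.mul_mem _ (Subgroup.inv_mem _ hg) hR) hg
    exact (Subgroup.mem_set_normalizer_iff.1 hgn ⟨a, ha'⟩).2 ha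

theorem radicalCentral_SL : RadicalCentral p SL := by
  classical
  intro D hD hne hrad y hy hyreg
  have hyN := BlockChar.centralizer_le_normalizer D hy
  obtain ⟨L, hL⟩ := exists_fixSeries_top hD
  have hex : ∃ m, fixSeries D (m + 1) = ⊤ := by
    exact ⟨L, top_le_iff.1 (hL ▸ fixSeries_le_succ D L)⟩
  obtain ⟨m, hmtop, hmne⟩ : ∃ m, fixSeries D (m + 1) = ⊤ ∧ fixSeries D m ≠ ⊤ := by
    refine ⟨Nat.find hex, Nat.find_spec hex, fun h => ?_⟩
    rcases hm : Nat.find hex with _ | k
    · rw [hm, fixSeries_zero] at h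
      obtain ⟨d, hd, hd1⟩ := D.bot_or_exists_ne_one.resolve_left hne
      refine hd1 (Subtype.ext (Matrix.ext_of_mulVec_single fun i => ?_))
      rw [Matrix.SpecialLinearGroup.coe_one, Matrix.one_mulVec]
      have : ∀ v : Fin n → F, v = 0 := fun v => by
        rw [← Submodule.mem_bot F, h]; trivial
      rw [this (Pi.single i 1)]; simp
    · rw [hm] at h
      exact Nat.find_min hex (m := k) (by omega) h
  have hm1 : 1 ≤ m := by
    by_contra hm0
    obtain rfl : m = 0 := by omega
    obtain ⟨d, hd, hd1⟩ := D.bot_or_exists_ne_one.resolve_left hne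
    refine hd1 (Subtype.ext (Matrix.ext_of_mulVec_single fun i => ?_))
    rw [Matrix.SpecialLinearGroup.coe_one, Matrix.one_mulVec]
    have := mem_fixSeries_succ.1 (show Pi.single i (1 : F) ∈ fixSeries D (0 + 1) by
      rw [hmtop]; trivial) d hd
    rwa [fixSeries_zero, Submodule.mem_bot, sub_eq_zero] at this
  have hW0 : fixSeries D m ≠ ⊥ := by
    have h0 : fixSeries D 0 ≠ ⊤ := fun h => hmne (top_le_iff.1 (h ▸ fixSeries_mono D (Nat.zero_le m)))
    have h1 : fixSeries D 0 < fixSeries D m := (fixSeries_lt hD h0).trans_le (fixSeries_mono D hm1)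
    exact (bot_lt_iff_ne_bot.1 h1)
  -- transvections shifting the series
  have htr : ∀ w ∈ fixSeries D m, ∀ a : Fin n → F, (∀ v ∈ fixSeries D m, a ⬝ᵥ v = 0) →
      ∀ v : Fin n → F, (a ⬝ᵥ v) • ((y : Matrix (Fin n) (Fin n) F) *ᵥ w) =
        (a ⬝ᵥ ((y : Matrix (Fin n) (Fin n) F) *ᵥ v)) • w := by
    intro w hw a ha v
    let g : SL := ⟨1 + Matrix.vecMulVec w a, by
      rw [Matrix.vecMulVec_eq Unit, Matrix.det_one_add_replicateCol_mul_replicateRow, ha w hw,
        add_zero]⟩
    have hact : ∀ u : Fin n → F, (g : Matrix (Fin n) (Fin n) F) *ᵥ u = u + (a ⬝ᵥ u) • w := by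
      intro u
      show (1 + Matrix.vecMulVec w a) *ᵥ u = _
      rw [Matrix.add_mulVec, Matrix.one_mulVec, Matrix.vecMulVec_mulVec, op_smul_eq_smul]
    have hgD : g ∈ D := by
      rw [← flagRadical_eq hD hrad]
      refine mem_flagRadical.2 fun k u hu => ?_
      rw [hact, add_sub_cancel_left]
      by_cases hk : k + 1 ≤ m
      · rw [ha u (fixSeries_mono D hk hu), zero_smul]; exact Submodule.zero_mem _
      · exact Submodule.smul_mem _ _ (fixSeries_mono D (by omega) hw)
    have hc : g * y = y * g := Subgroup.mem_centralizer_iff.1 hy g hgD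
    have h1 := congrArg (fun x : SL => (x : Matrix (Fin n) (Fin n) F) *ᵥ v) hc
    simp only [Matrix.SpecialLinearGroup.coe_mul, ← Matrix.mulVec_mulVec, hact, Matrix.mulVec_add,
      Matrix.mulVec_smul] at h1
    exact (add_left_cancel h1).symm
  have hdual : ∀ x : Fin n → F, x ∉ fixSeries D m →
      ∃ a : Fin n → F, a ⬝ᵥ x ≠ 0 ∧ ∀ v ∈ fixSeries D m, a ⬝ᵥ v = 0 := by
    intro x hx
    obtain ⟨f, hf0, hf⟩ := Submodule.exists_dual_map_eq_bot_of_notMem hx inferInstance
    have he : ∀ v, (fun i => f (Pi.single i 1)) ⬝ᵥ v = f v := by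
      intro v
      rw [dotProduct]
      conv_rhs => rw [pi_eq_sum_univ' v, map_sum]
      refine Finset.sum_congr rfl fun i _ => ?_
      rw [map_smul, smul_eq_mul, mul_comm]
    refine ⟨_, by rw [he]; exact hf0, fun v hv => ?_⟩
    rw [he, ← Submodule.mem_bot F, ← hf]
    exact Submodule.mem_map_of_mem hv
  obtain ⟨x, -, hx⟩ := SetLike.exists_of_lt (lt_top_iff_ne_top.2 hmne)
  obtain ⟨a, hax, ha⟩ := hdual x hx
  set μ : F := (a ⬝ᵥ x)⁻¹ * (a ⬝ᵥ ((y : Matrix (Fin n) (Fin n) F) *ᵥ x)) with hμ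
  have hW : ∀ w ∈ fixSeries D m, (y : Matrix (Fin n) (Fin n) F) *ᵥ w = μ • w := by
    intro w hw
    rw [hμ, mul_smul, ← htr w hw a ha x, smul_smul, inv_mul_cancel₀ hax, one_smul]
  obtain ⟨w, hw, hw0⟩ := Submodule.exists_mem_ne_zero_of_ne_bot hW0
  have hQ : ∀ u, (y : Matrix (Fin n) (Fin n) F) *ᵥ u - μ • u ∈ fixSeries D m := by
    intro u
    by_contra hu
    obtain ⟨b, hb0, hb⟩ := hdual _ hu
    have h2 := htr w hw b hb u
    rw [hW w hw, smul_smul] at h2
    have h3 := smul_left_injective F hw0 h2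
    apply hb0
    rw [dotProduct_sub, dotProduct_smul, smul_eq_mul, ← h3]
    ring
  have hsq : ((y : Matrix (Fin n) (Fin n) F) - μ • 1) ^ 2 = 0 := by
    refine Matrix.ext_of_mulVec_single fun i => ?_
    rw [pow_two, ← Matrix.mulVec_mulVec, Matrix.zero_mulVec, Matrix.sub_mulVec _ _
      (((y : Matrix (Fin n) (Fin n) F) - μ • 1) *ᵥ _), Matrix.smul_mulVec, Matrix.one_mulVec,
      sub_eq_zero]
    refine hW _ ?_
    rw [Matrix.sub_mulVec, Matrix.smul_mulVec, Matrix.one_mulVec]
    exact hQ _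
  haveI : Nonempty (Fin n) := by
    by_contra hempty
    rw [not_nonempty_iff] at hempty
    exact hne ((Subgroup.eq_bot_iff_forall D).2 fun d _ => Subsingleton.elim _ _)
  have hyp : (y : Matrix (Fin n) (Fin n) F) ^ p = (μ ^ p) • 1 := by
    have h0 : ((y : Matrix (Fin n) (Fin n) F) - μ • 1) ^ p = 0 :=
      pow_eq_zero_of_le hp.out.two_le hsq
    rw [sub_pow_char_of_commute p ((Commute.one_right _).smul_right μ), smul_pow, one_pow,
      sub_eq_zero] at h0
    exact h0
  obtain ⟨j, hj⟩ := exists_pow_eq_self_of_coprime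
    ((Nat.Prime.coprime_iff_not_dvd hp.out).2 hyreg)
  refine Subgroup.mem_center_iff.2 fun g => Subtype.ext ?_
  rw [← hj]
  simp only [Matrix.SpecialLinearGroup.coe_mul, Matrix.SpecialLinearGroup.coe_pow, hyp, smul_pow,
    one_pow]
  simp

end Cfsg.Agent.Chars2.SLDef
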