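import Cfsg.Agent.Linear.Unipotent.Degree
import Cfsg.Agent.Linear.SylowCard
import Cfsg.Agent.Chars.PrimePowerDivisor
import Cfsg.Agent.S0887
import Cfsg.Agent.Blocks.Orth

/-!
The special linear group has an irreducible character of defect zero in its characteristic.
-/

set_option autoImplicit false
set_option linter.unusedSectionVars false

namespace Cfsg.Agent.Chars2.SLDef

open Cfsg Cfsg.Agent Cfsg.Agent.Linear.Unipotent Matrix
open scoped MatrixGroups

universe u

variable {F : Type u} [Field F] [Fintype F]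

theorem qInt_sub_qInt (q a : ℕ) : ∀ d, qInt q (a + d) = qInt q a + q ^ a * qInt q d := by
  intro d
  induction d with
  | zero => simp [qInt]
  | succ d ih =>
    simp only [qInt] at ih ⊢
    rw [← add_assoc, Finset.sum_range_succ, ih, Finset.sum_range_succ]
    ring

theorem prod_qInt_Iio (q : ℕ) (j : ℕ) :
    ∏ i ∈ Finset.range j, qInt q (j - i) = qFac q j := by
  rw [qFac, ← Finset.prod_range_reflect (fun i => qInt q (i + 1)) j]
  refine Finset.prod_congr rfl fun i hi => ?_
  rw [Finset.mem_range] at hi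
  congr 1
  omega

theorem prod_Ioi_qInt (n q : ℕ) :
    ∏ i : Fin n, ∏ j ∈ Finset.Ioi i, ((qInt q (1 + j.val) : ℂ) - (qInt q (1 + i.val) : ℂ)) =
      (q : ℂ) ^ (∑ j : Fin n, (tri j.val + j.val)) * ∏ j : Fin n, (qFac q j.val : ℂ) := by
  rw [Finset.prod_comm' (t' := (Finset.univ : Finset (Fin n))) (s' := fun j => Finset.Iio j)
      (by intro i j; simp),
    ← Finset.prod_pow_eq_pow_sum, ← Finset.prod_mul_distrib]
  refine Finset.prod_congr rfl fun j _ => ?_
  have h : ∀ f : ℕ → ℂ, ∏ i ∈ Finset.Iio j, f i.val = ∏ i ∈ Finset.range j.val, f i := fun f => by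
    rw [← Nat.Iio_eq_range, ← Fin.map_valEmbedding_Iio, Finset.prod_map]
    rfl
  rw [h (fun i => (qInt q (1 + j.val) : ℂ) - (qInt q (1 + i) : ℂ))]
  calc ∏ i ∈ Finset.range j.val, ((qInt q (1 + j.val) : ℂ) - (qInt q (1 + i) : ℂ))
      = ∏ i ∈ Finset.range j.val, ((q : ℂ) ^ (i + 1) * (qInt q (j.val - i) : ℂ)) := by
        refine Finset.prod_congr rfl fun i hi => ?_
        rw [Finset.mem_range] at hi
        have e := qInt_sub_qInt q (1 + i) (j.val - i)
        rw [show 1 + i + (j.val - i) = 1 + j.val by omega] at e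
        rw [e, add_comm i 1]
        push_cast
        ring
    _ = _ := by
      rw [Finset.prod_mul_distrib, Finset.prod_pow_eq_pow_sum, ← prod_qInt_Iio q j.val, Nat.cast_prod]
      congr 2
      rw [Finset.sum_add_distrib, Finset.sum_const, Finset.card_range, smul_eq_mul, mul_one, tri]

theorem prod_qFac_shift (n q : ℕ) :
    ∏ i : Fin n, qFac q (1 + i.val) = qFac q n * ∏ j : Fin n, qFac q j.val := by
  rw [Fin.prod_univ_eq_prod_range (fun i => qFac q (1 + i)) n,
    Fin.prod_univ_eq_prod_range (fun i => qFac q i) n, mul_comm (qFac q n),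
    ← Finset.prod_range_succ (fun i => qFac q i) n, Finset.prod_range_succ']
  rw [show qFac q 0 = 1 by simp [qFac], mul_one]
  exact Finset.prod_congr rfl fun i _ => by rw [add_comm]

theorem exists_defect_zero (p : ℕ) [hp : Fact p.Prime] [CharP F p] {n : ℕ} (hn : 2 ≤ n) :
    ∃ χ : IrrCharacter (SpecialLinearGroup (Fin n) F),
      charDegree (χ : SpecialLinearGroup (Fin n) F → ℂ) = Fintype.card F ^ (n * (n - 1) / 2) ∧
      ¬ p ∣ Nat.card (SpecialLinearGroup (Fin n) F) / charDegree
        (χ : SpecialLinearGroup (Fin n) F → ℂ) := by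
  classical
  haveI : NeZero n := ⟨by omega⟩
  haveI : Nonempty (Fin n) := ⟨0⟩
  set q := Fintype.card F with hqdef
  let ν : Fin n → ℕ := fun _ => 1
  have hmono : Monotone ν := fun _ _ _ => le_rfl
  have hsum : ∑ i, ν i = n := by simp [ν]
  have hq0 : (q : ℂ) ≠ 0 := by exact_mod_cast Fintype.card_ne_zero
  set N := n * (n - 1) / 2 with hN
  have htri : tri n = N := Finset.sum_range_id n
  have hdeg : unipotentCharacterGL n F ν 1 = ((q ^ N : ℕ) : ℂ) := by
    have h := degree_unipotentCharacter (F := F) ν hsum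
    simp only [ν, prod_Ioi_qInt] at h
    rw [← Nat.cast_prod, prod_qFac_shift, Finset.sum_add_distrib,
      Linear.Unipotent.sum_tri, Fin.sum_univ_eq_sum_range (fun j => j) n] at h
    change _ = _ * ((q : ℂ) ^ (_ + tri n) * _) at h
    rw [htri, pow_add, Nat.cast_mul, Nat.cast_prod] at h
    have hf : (qFac q n : ℂ) * ∏ j : Fin n, (qFac q j.val : ℂ) ≠ 0 :=
      mul_ne_zero (Nat.cast_ne_zero.2 (qFac_ne_zero Fintype.card_ne_zero n))
        (Finset.prod_ne_zero_iff.2 fun j _ =>
          Nat.cast_ne_zero.2 (qFac_ne_zero Fintype.card_ne_zero _))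
    rw [Nat.cast_pow]
    apply mul_right_cancel₀ (mul_ne_zero (pow_ne_zero (n * (n - 1) * (n - 2) / 6) hq0) hf)
    linear_combination h
  have hirr := isIrr_unipotentCharacter (F := F) hmono hsum
  set K := (GeneralLinearGroup.det : GL (Fin n) F →* Fˣ).ker with hK
  letI : Fintype K := Chars.PrimePower.fintypeSub K
  obtain ⟨θ, hθ⟩ := Chars.PrimePower.exists_constituent (Chars.isCharacter_of_isIrr hirr)
    (Chars.irr_apply_one_ne_zero hirr) K
  obtain ⟨d, -, hd⟩ := Chars.exists_irr_apply_one_eq θ.2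
  obtain ⟨hdvd, hidx⟩ := S0887.result K _ hirr _ θ.2 hθ _ d hdeg hd
  have hKidx : K.index = q - 1 := by
    rw [Subgroup.index_ker, MonoidHom.range_eq_top.2 GeneralLinearGroup.det_surjective,
      Subgroup.card_top, Nat.card_units, Nat.card_eq_fintype_card]
  have hqp : p ∣ q := by
    obtain ⟨e, -, he⟩ := FiniteField.card F p
    rw [hqdef, he]
    exact dvd_pow_self p e.ne_zero
  have hp1 : ¬ p ∣ q - 1 := fun h => hp.out.not_dvd_one (by
    have h1 : 1 ≤ q := Fintype.card_pos
    have := Nat.dvd_sub hqp h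
    rwa [show q - (q - 1) = 1 by omega] at this)
  have hde : d = q ^ N := by
    obtain ⟨e, -, he⟩ := FiniteField.card F p
    have hcop : Nat.Coprime (q ^ N) (q - 1) := by
      rw [hqdef, he, ← pow_mul]
      exact Nat.Coprime.pow_left _ ((Nat.Prime.coprime_iff_not_dvd hp.out).2 (he ▸ hp1))
    have h1 : q ^ N / d = 1 :=
      Nat.eq_one_of_dvd_coprimes hcop (Nat.div_dvd_of_dvd hdvd) (hKidx ▸ hidx)
    exact Nat.eq_of_dvd_of_div_eq_one hdvd h1
  let e : SpecialLinearGroup (Fin n) F ≃* K :=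
    (MonoidHom.ofInjective (f := SpecialLinearGroup.toGL)
      (fun a b h => Subtype.ext (congrArg Units.val h))).trans
      (MulEquiv.subgroupCongr Linear.range_toGL_eq_ker_det)
  refine ⟨⟨_, Chars.isIrrCharacter_comp_equiv θ.2 e⟩, ?_⟩
  have hcd : charDegree ((θ : K → ℂ) ∘ e) = q ^ N := by
    have : ((θ : K → ℂ) ∘ e) 1 = ((q ^ N : ℕ) : ℂ) := by
      rw [Function.comp_apply, map_one, hd, hde]
    rw [charDegree, this, Complex.natCast_re, Nat.floor_natCast]
  refine ⟨hcd, ?_⟩
  show ¬ p ∣ Nat.card _ / charDegree ((θ : K → ℂ) ∘ e)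
  rw [hcd]
  intro h
  obtain ⟨P⟩ : Nonempty (Sylow p (GL (Fin n) F)) := inferInstance
  have hnd := P.not_dvd_index
  apply hnd
  have hdivSL : q ^ N ∣ Nat.card (SpecialLinearGroup (Fin n) F) := by
    have := Blocks.charDegree_dvd (Chars.isIrrCharacter_comp_equiv θ.2 e)
    rwa [hcd] at this
  have hidx' : (P : Subgroup (GL (Fin n) F)).index =
      (q - 1) * (Nat.card (SpecialLinearGroup (Fin n) F) / q ^ N) := by
    have h1 := (P : Subgroup (GL (Fin n) F)).card_mul_index
    rw [Linear.card_sylow_GL p n P, ← Linear.card_units_mul_card_SL, Nat.card_units,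
      Nat.card_eq_fintype_card, ← Nat.mul_div_cancel' hdivSL, ← hN] at h1
    apply Nat.eq_of_mul_eq_mul_left (pow_pos (Fintype.card_pos (α := F)) N)
    rw [h1]; ring
  rw [hidx']
  exact dvd_mul_of_dvd_right h _

end Cfsg.Agent.Chars2.SLDef
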