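import Cfsg.Agent.Chars2.SLDef.Module
import Mathlib.LinearAlgebra.Dimension.Constructions

/-!
Two modules of a special linear group of dimension at least the order of a unitriangular group
cannot be separated by the group algebra.
-/

set_option autoImplicit false
set_option linter.unusedSectionVars false

namespace Cfsg.Agent.Chars2.SLDef

open Matrix
open scoped Classical
open scoped MatrixGroups

universe u v w w'

variable {F : Type u} [Field F] [Fintype F] {n : ℕ} {k : Type v} [Field k] {V : Type w}
  [AddCommGroup V] [Module k V] {V' : Type w'} [AddCommGroup V'] [Module k V']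

local notation "SL" => Matrix.SpecialLinearGroup (Fin n) F

variable (p : ℕ) [Fact p.Prime] [CharP F p] [CharP k p] [IsAlgClosed k]
include p

theorem natCard_F_cast : ((Nat.card F : ℕ) : k) = 0 := by
  obtain ⟨e, -, he⟩ := FiniteField.card F p
  rw [Nat.card_eq_fintype_card, he, Nat.cast_pow, CharP.cast_eq_zero k p, zero_pow e.ne_zero]

/-- The vector generating an irreducible module of maximal dimension. -/
theorem exists_top_vector [FiniteDimensional k V] (hn : 2 ≤ n) (ρ : Representation k SL V)
    (hirr : ∀ S : Submodule k V, (∀ g, ∀ x ∈ S, ρ g x ∈ S) → S = ⊥ ∨ S = ⊤)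
    (hdim : Nat.card (loSub F n) ≤ Module.finrank k V) :
    ∃ v : V, loSpan ρ v = ⊤ ∧ (∀ u ∈ upSub F n, ρ u v = v) ∧
      ∀ (i j : Fin n) (hij : (i : ℕ) + 1 = j),
        (∀ u, ρ (hh (adj_lt hij).ne u) v = v) ∧
        sig ρ (adj_lt hij).ne (ρ (ww (adj_lt hij).ne) v) = -v := by
  haveI : Nontrivial V :=
    Module.nontrivial_of_finrank_pos (R := k) (Nat.card_pos.trans_le hdim)
  obtain ⟨v, hv0, hU, hdata⟩ := exists_vector p ρ
  have hgood : IsGood ρ v := ⟨hU, fun i j hij u => by
      obtain ⟨μ, hμ, -⟩ := hdata i j hij; exact ⟨_, hμ u⟩, fun i j hij => by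
      obtain ⟨μ, -, c, hc, -⟩ := hdata i j hij; exact ⟨c, hc⟩⟩
  have htop : loSpan ρ v = ⊤ := (hirr _ fun g x hx => hgood.stable hn g hx).resolve_left
    fun h => hv0 ((Submodule.mem_bot k).1 (h ▸ self_mem_loSpan ρ v))
  have hli : LinearIndependent k (fun u : loSub F n => ρ (u : SL) v) := by
    refine linearIndependent_of_top_le_span_of_card_eq_finrank htop.ge (le_antisymm ?_ ?_)
    · rw [← Nat.card_eq_fintype_card]; exact hdim
    · have h : (Set.range fun u : loSub F n => ρ (u : SL) v).finrank k ≤ Fintype.card (loSub F n) :=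
        finrank_range_le_card _
      have h' : (Set.range fun u : loSub F n => ρ (u : SL) v).finrank k = Module.finrank k V := by
        unfold Set.finrank
        rw [show Submodule.span k (Set.range fun u : loSub F n => ρ (u : SL) v) = ⊤ from htop,
          finrank_top]
      rwa [h'] at h
  refine ⟨v, htop, hU, fun i j hij => ?_⟩
  obtain ⟨μ, hμ, c, hc, hcμ⟩ := hdata i j hij
  have hlt := adj_lt hij
  have hne := hlt.ne
  have hUa : ∀ a : F, ρ (xp hne a) v = v := fun a => hU _ (xp_mem_upSub hlt a)
  have hμmul : ∀ a b, μ (a * b) = μ a * μ b := fun a b => by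
    refine smul_left_injective k hv0 ?_
    show μ (a * b) • v = (μ a * μ b) • v
    rw [← hμ, hh_mul, rho_mul, hμ, map_smul, hμ, smul_smul, mul_comm]
  have hμ1 : μ 1 = 1 := by
    refine smul_left_injective k hv0 ?_
    show μ 1 • v = (1 : k) • v
    rw [← hμ, hh_one, map_one, one_smul]; rfl
  have hw := ww_apply_eq ρ hne hUa hμ hc
  have hc0 : c ≠ 0 := by
    intro h0
    rw [h0, zero_smul, zero_sub] at hw
    have h2 : μ (-1) • v = -∑ a : Fˣ, (μ (-a) * μ a⁻¹) • ρ (xm hne (-(a : F))) v := by
      rw [← hμ, ← ww_mul_ww, rho_mul]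
      conv_lhs => rw [hw, map_neg, map_sum]
      congr 1
      refine Finset.sum_congr rfl fun a _ => ?_
      rw [map_smul, ← rho_mul, ww_mul_xm, rho_mul, ← Units.val_neg, ← rho_mul, xp_mul_ww, rho_mul,
        rho_mul, hUa, hμ, map_smul, smul_smul, neg_neg, inv_neg, inv_inv, Units.val_neg]
    have hmem : v ∈ Submodule.span k
        ((fun u : loSub F n => ρ (u : SL) v) '' {u | u ≠ 1}) := by
      have hsum : ∑ a : Fˣ, (μ (-a) * μ a⁻¹) • ρ (xm hne (-(a : F))) v ∈
          Submodule.span k ((fun u : loSub F n => ρ (u : SL) v) '' {u | u ≠ 1}) := by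
        refine Submodule.sum_mem _ fun a _ => Submodule.smul_mem _ _ (Submodule.subset_span
          ⟨⟨xm hne (-(a : F)), xm_mem_loSub hlt _⟩, fun h => ?_, rfl⟩)
        have h3 := congrArg (fun x : loSub F n => ((x : SL) : Matrix (Fin n) (Fin n) F) j i) h
        simp [xm_eq, Matrix.one_apply, hne.symm] at h3
      have hu : μ (-1) * μ (-1) = 1 := by rw [← hμmul, neg_mul_neg, mul_one, hμ1]
      have h5 : μ (-1) • v ∈ Submodule.span k
          ((fun u : loSub F n => ρ (u : SL) v) '' {u | u ≠ 1}) := by
        rw [h2]; exact Submodule.neg_mem _ hsum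
      have h6 := Submodule.smul_mem _ (μ (-1)) h5
      rwa [smul_smul, hu, one_smul] at h6
    refine hli.notMem_span_image (s := {u : loSub F n | u ≠ 1}) (x := (1 : loSub F n))
      (fun h => h rfl) ?_
    rw [show ρ ((1 : loSub F n) : SL) v = v by simp]
    exact hmem
  have hcμ' : c = ∑ u : Fˣ, μ u := hcμ.resolve_left hc0
  let μh : Fˣ →* k := { toFun := μ, map_one' := hμ1, map_mul' := hμmul }
  have hμh : μh = 1 := by
    by_contra h
    exact hc0 (hcμ'.trans (sum_hom_units_eq_zero μh h))
  have hμone : ∀ u, μ u = 1 := fun u => DFunLike.congr_fun hμh u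
  refine ⟨fun u => by rw [hμ, hμone, one_smul], ?_⟩
  rw [hc, hcμ', Finset.sum_congr rfl (g := fun _ => (1 : k)) (fun u _ => hμone u),
    Finset.sum_const, nsmul_one, Finset.card_univ, Fintype.card_units, Nat.cast_sub Fintype.card_pos,
    ← Nat.card_eq_fintype_card, natCard_F_cast p, zero_sub, Nat.cast_one, neg_one_smul]

/-- The sum of two representations. -/
def pairRep (ρ : Representation k SL V) (ρ' : Representation k SL V') :
    Representation k SL (V × V') where
  toFun g := (ρ g).prodMap (ρ' g)
  map_one' := by rw [map_one, map_one]; rfl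
  map_mul' a b := by rw [map_mul, map_mul]; rfl

theorem pairRep_apply (ρ : Representation k SL V) (ρ' : Representation k SL V') (g : SL) (x : V × V') :
    pairRep ρ ρ' g x = (ρ g x.1, ρ' g x.2) := rfl

theorem pairRep_fst (ρ : Representation k SL V) (ρ' : Representation k SL V') (g : SL) (x : V × V') :
    (pairRep ρ ρ' g x).1 = ρ g x.1 := rfl

theorem pairRep_snd (ρ : Representation k SL V) (ρ' : Representation k SL V') (g : SL) (x : V × V') :
    (pairRep ρ ρ' g x).2 = ρ' g x.2 := rfl

theorem not_separated [FiniteDimensional k V] [FiniteDimensional k V'] (hn : 2 ≤ n)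
    (ρ : Representation k SL V) (ρ' : Representation k SL V')
    (hirr : ∀ S : Submodule k V, (∀ g, ∀ x ∈ S, ρ g x ∈ S) → S = ⊥ ∨ S = ⊤)
    (hirr' : ∀ S : Submodule k V', (∀ g, ∀ x ∈ S, ρ' g x ∈ S) → S = ⊥ ∨ S = ⊤)
    (hdim : Nat.card (loSub F n) ≤ Module.finrank k V)
    (hdim' : Nat.card (loSub F n) ≤ Module.finrank k V')
    (f : SL → k) (hf : ∑ g, f g • ρ g = 1) (hf' : ∑ g, f g • ρ' g = 0) : False := by
  obtain ⟨v, htop, hU, hdata⟩ := exists_top_vector p hn ρ hirr hdim
  obtain ⟨v', htop', hU', hdata'⟩ := exists_top_vector p hn ρ' hirr' hdim'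
  set π := pairRep ρ ρ'
  have hgood : IsGood π (v, v') := by
    refine ⟨fun u hu => ?_, fun i j hij u => ⟨1, ?_⟩, fun i j hij => ⟨-1, ?_⟩⟩
    · rw [pairRep_apply, hU u hu, hU' u hu]
    · rw [pairRep_apply, (hdata i j hij).1, (hdata' i j hij).1, one_smul]
    · have h1 := (hdata i j hij).2
      have h2 := (hdata' i j hij).2
      rw [sig_apply] at h1 h2 ⊢
      rw [neg_one_smul, Prod.neg_mk, ← h1, ← h2]
      refine Prod.ext ?_ ?_
      · rw [Prod.fst_sum]; exact Finset.sum_congr rfl fun a _ => rfl
      · rw [Prod.snd_sum]; exact Finset.sum_congr rfl fun a _ => rfl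
  set S := loSpan π (v, v')
  have hstab : ∀ g, ∀ x ∈ S, π g x ∈ S := fun g x hx => hgood.stable hn g hx
  have hfst : ∀ x : V × V', x ∈ S → (x.1, (0 : V')) ∈ S := fun x hx => by
    have h : (x.1, (0 : V')) = ∑ g, f g • π g x := by
      refine Prod.ext ?_ ?_
      · have := LinearMap.congr_fun hf x.1
        simp only [LinearMap.sum_apply, LinearMap.smul_apply, Module.End.one_apply] at this
        rw [Prod.fst_sum]
        exact this.symm.trans (Finset.sum_congr rfl fun a _ => rfl)
      · have := LinearMap.congr_fun hf' x.2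
        simp only [LinearMap.sum_apply, LinearMap.smul_apply, LinearMap.zero_apply] at this
        rw [Prod.snd_sum]
        exact this.symm.trans (Finset.sum_congr rfl fun a _ => rfl)
    rw [h]
    exact S.sum_mem fun g _ => S.smul_mem _ (hstab g x hx)
  have hvv : (v, v') ∈ S := self_mem_loSpan π _
  have h1 : (v, (0 : V')) ∈ S := hfst _ hvv
  have h2 : ((0 : V), v') ∈ S := by
    have := S.sub_mem hvv h1
    simpa using this
  have hV : loSpan ρ v ≤ S.comap (LinearMap.inl k V V') := Submodule.span_le.2 (by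
    rintro _ ⟨u, rfl⟩
    have := hstab u _ h1
    rw [pairRep_apply, map_zero] at this
    exact this)
  have hV' : loSpan ρ' v' ≤ S.comap (LinearMap.inr k V V') := Submodule.span_le.2 (by
    rintro _ ⟨u, rfl⟩
    have := hstab u _ h2
    rw [pairRep_apply, map_zero] at this
    exact this)
  have hS : S = ⊤ := Submodule.eq_top_iff'.2 fun x => by
    have e : x = LinearMap.inl k V V' x.1 + LinearMap.inr k V V' x.2 := by simp
    rw [e]
    exact S.add_mem (hV (htop ▸ Submodule.mem_top)) (hV' (htop' ▸ Submodule.mem_top))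
  have h3 : (Set.range fun u : loSub F n => π (u : SL) (v, v')).finrank k ≤
      Fintype.card (loSub F n) := finrank_range_le_card _
  have h4 : (Set.range fun u : loSub F n => π (u : SL) (v, v')).finrank k =
      Module.finrank k (V × V') := by
    unfold Set.finrank
    rw [show Submodule.span k (Set.range fun u : loSub F n => π (u : SL) (v, v')) = ⊤ from hS,
      finrank_top]
  rw [h4, Module.finrank_prod, ← Nat.card_eq_fintype_card] at h3
  have : 0 < Nat.card (loSub F n) := Nat.card_pos
  omega

end Cfsg.Agent.Chars2.SLDef
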