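import Cfsg.Agent.Chars2.SLDef.BlocksGeneric
import Cfsg.Agent.Chars2.SLDef.Flag
import Cfsg.Agent.Chars2.SLDef.Unique
import Cfsg.Agent.Chars2.SLDef.DefectZero
import Cfsg.Agent.Chars2.SLDef.Steinberg

/-!
The `p`-blocks of a special linear group in characteristic `p`.
-/

set_option autoImplicit false
set_option linter.unusedSectionVars false
set_option linter.style.haveILetI false
set_option maxHeartbeats 1000000
set_option synthInstance.maxHeartbeats 200000

namespace Cfsg.Agent.Chars2.SLDef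

open Cfsg Cfsg.Agent Cfsg.Agent.Blocks
open scoped MatrixGroups

universe u

variable {F : Type u} [Field F] [Fintype F] {n : ℕ} {p : ℕ} [hp : Fact p.Prime] [CharP F p]
  {M : Ideal AlgInt} [M.IsMaximal]

local notation "SL" => Matrix.SpecialLinearGroup (Fin n) F

theorem dvd_card_SL (hn : 2 ≤ n) : p ∣ Nat.card SL := by
  classical
  let i : Fin n := ⟨0, by omega⟩
  let j : Fin n := ⟨1, by omega⟩
  have hij : i < j := Fin.lt_def.2 (by simp [i, j])
  obtain ⟨k, hk⟩ := isPGroup_upSub (F := F) (n := n) p ⟨_, xp_mem_upSub hij (1 : F)⟩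
  have h1 : xp hij.ne (1 : F) ≠ 1 := fun h => by
    have := congrArg (fun g : SL => (g : Matrix (Fin n) (Fin n) F) i j) h
    simp [xp_eq, Matrix.one_apply, hij.ne] at this
  have h2 : orderOf (xp hij.ne (1 : F)) ∣ p ^ k := orderOf_dvd_of_pow_eq_one (congrArg Subtype.val hk)
  obtain ⟨l, -, hl⟩ := (Nat.dvd_prime_pow hp.out).1 h2
  rcases l with _ | l
  · exact absurd (orderOf_eq_one_iff.1 (hl.trans (pow_zero p))) h1
  · exact (hl ▸ dvd_pow_self p l.succ_ne_zero).trans (orderOf_dvd_natCard _)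

theorem not_dvd_card_center (hn : 2 ≤ n) : ¬ p ∣ Nat.card (Subgroup.center SL) := by
  classical
  haveI : NeZero n := ⟨by omega⟩
  rw [Linear.card_center_SL]
  intro h
  have h1 : p ∣ Fintype.card F - 1 := h.trans (Nat.gcd_dvd_right _ _)
  obtain ⟨e, -, he⟩ := FiniteField.card F p
  have hq : p ∣ Fintype.card F := he ▸ dvd_pow_self p e.ne_zero
  have h2 : 1 ≤ Fintype.card F := Fintype.card_pos
  have h3 := Nat.dvd_sub hq h1
  rw [show Fintype.card F - (Fintype.card F - 1) = 1 by omega] at h3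
  exact hp.out.not_dvd_one h3

theorem degree_facts {ψ : IrrCharacter SL} {a : ℕ} (ha : (ψ : SL → ℂ) 1 = a)
    (hψ : ¬ p ∣ Nat.card SL / charDegree (ψ : SL → ℂ)) :
    Nat.card SL = a * (Nat.card SL / a) ∧ ¬ p ∣ Nat.card SL / a ∧ Nat.card (loSub F n) ≤ a := by
  classical
  have hc : charDegree (ψ : SL → ℂ) = a := by simp [charDegree, ha]
  rw [hc] at hψ
  have hdvd : a ∣ Nat.card SL := hc ▸ charDegree_dvd ψ.2
  refine ⟨(Nat.mul_div_cancel' hdvd).symm, hψ, ?_⟩
  have ha0 : a ≠ 0 := fun h0 => Chars.irr_apply_one_ne_zero ψ.2 (by rw [ha, h0, Nat.cast_zero])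
  obtain ⟨k, hk⟩ := (IsPGroup.iff_card).1 (isPGroup_loSub (F := F) (n := n) p)
  have hL : p ^ k ∣ a * (Nat.card SL / a) := by
    rw [Nat.mul_div_cancel' hdvd, ← hk]
    exact Subgroup.card_subgroup_dvd_card _
  rw [hk]
  exact Nat.le_of_dvd (Nat.pos_of_ne_zero ha0)
    ((Nat.Coprime.pow_left k ((Nat.Prime.coprime_iff_not_dvd hp.out).2 hψ)).dvd_of_dvd_mul_right hL)

/-- There is at most one character of defect zero. -/
theorem defect_zero_unique (hn : 2 ≤ n) (hM : IsPModular p M) {χ χ' : IrrCharacter SL}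
    (h : ¬ p ∣ Nat.card SL / charDegree (χ : SL → ℂ))
    (h' : ¬ p ∣ Nat.card SL / charDegree (χ' : SL → ℂ)) : χ = χ' := by
  classical
  have hpM := hM.2.2
  by_contra hne
  haveI := BlockChar.charP_res hpM
  obtain ⟨d, ρ, hd, h1, htr, hR, hs⟩ := exists_locRep hpM χ.2
  obtain ⟨d', ρ', hd', h1', htr', hR', hs'⟩ := exists_locRep hpM χ'.2
  have key := @degree_facts F _ _ n p _ _
  obtain ⟨hm, hpm, hdim⟩ := key h1 h
  obtain ⟨hm', hpm', hdim'⟩ := key h1' h'
  refine not_separated (k := Res M) p hn (resRep ρ hR) (resRep ρ' hR')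
    (resRep_irr hR hpM hm hpm hd hs) (resRep_irr hR' hpM hm' hpm' hd' hs')
    (by rwa [Module.finrank_fin_fun]) (by rwa [Module.finrank_fin_fun]) _
    (sum_char_resRep hR hpM hm hpm htr hd hs)
    (sum_char_resRep_of_ne hpM hpm hR' hd' htr' h1' hs' (Ne.symm hne))

theorem card_defect_zero (hn : 2 ≤ n) (hM : IsPModular p M) :
    Nat.card {B : Set (IrrCharacter SL) // IsPBlock M B ∧ blockDefect p B = 0} = 1 := by
  classical
  have hpM := hM.2.2
  obtain ⟨χ, -, hχ⟩ := exists_defect_zero (F := F) p hn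
  have hzero : blockDefect p (blockOf M (χ : SL → ℂ)) = 0 := by
    rw [(Cfsg.Agent.S0914.result p M hM χ).1 hχ, blockDefect, Set.image_singleton, csInf_singleton]
    refine Nat.sub_eq_zero_iff_le.2 ?_
    by_contra hlt
    push Not at hlt
    obtain ⟨hdeg, hpos⟩ := charDegree_eq χ.2
    apply hχ
    have h1 : p ^ (Nat.card SL).factorization p ∣ Nat.card SL := Nat.ordProj_dvd _ _
    obtain ⟨m, hm⟩ := charDegree_dvd χ.2
    rw [hm, Nat.mul_div_cancel_left _ hpos]
    have hm0 : m ≠ 0 := fun h0 => Nat.card_pos.ne' (hm.trans (by rw [h0, mul_zero]) : Nat.card SL = 0)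
    rw [hm, Nat.factorization_mul hpos.ne' hm0, Finsupp.add_apply] at hlt
    exact Nat.dvd_of_factorization_pos (by omega)
  refine Nat.card_eq_one_iff_unique.2 ⟨⟨fun a b => ?_⟩, ⟨⟨_, isPBlock_blockOf χ, hzero⟩⟩⟩
  obtain ⟨x, hx⟩ := block_nonempty a.2.1
  obtain ⟨y, hy⟩ := block_nonempty b.2.1
  have e := defect_zero_unique hn hM (not_dvd_div_of_degree_full (degree_full_of_defect_zero a.2.2 hx))
    (not_dvd_div_of_degree_full (degree_full_of_defect_zero b.2.2 hy))
  exact Subtype.ext (blocks_eq_of_inter a.2.1 b.2.1 hx (e ▸ hy))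

theorem zero_or_full (hM : IsPModular p M) {B : Set (IrrCharacter SL)} (hB : IsPBlock M B) :
    blockDefect p B = 0 ∨ blockDefect p B = (Nat.card SL).factorization p := by
  classical
  exact blockDefect_zero_or_full hM.2.2 radicalCentral_SL hB

theorem card_blocks_SL (hn : 2 ≤ n) (hM : IsPModular p M) :
    Nat.card {B : Set (IrrCharacter SL) // IsPBlock M B} = Nat.gcd n (Fintype.card F - 1) + 1 := by
  classical
  haveI : NeZero n := ⟨by omega⟩
  rw [card_blocks hM radicalCentral_SL (dvd_card_SL hn) (not_dvd_card_center hn)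
    (card_defect_zero hn hM), Linear.card_center_SL]

end Cfsg.Agent.Chars2.SLDef
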