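import Cfsg.Agent.Chars2.SLDef.RootSL2
import Mathlib.RepresentationTheory.Basic
import Mathlib.FieldTheory.IsAlgClosed.Basic
import Mathlib.LinearAlgebra.Eigenspace.Triangularizable
import Mathlib.RingTheory.IntegralDomain
import Mathlib.FieldTheory.Finiteness
import Mathlib.Algebra.Field.ZMod
import Mathlib.LinearAlgebra.Span.Basic
import Mathlib.GroupTheory.QuotientGroup.Basic
import Mathlib.LinearAlgebra.FreeModule.Finite.Matrix

/-!
Modules for a special linear group over a field of its defining characteristic: a fixed vector of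
the unitriangular group spreading over the opposite group, and the one of maximal dimension.
-/

set_option autoImplicit false
set_option linter.unusedSectionVars false
set_option maxHeartbeats 1000000

namespace Cfsg.Agent.Chars2.SLDef

open Matrix
open scoped Classical
open scoped MatrixGroups

universe u v w

variable {F : Type u} [Field F] [Fintype F] {n : ℕ} {k : Type v} [Field k] {V : Type w}
  [AddCommGroup V] [Module k V]

local notation "SL" => Matrix.SpecialLinearGroup (Fin n) F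

theorem rho_mul (ρ : Representation k SL V) (g h : SL) (v : V) : ρ (g * h) v = ρ g (ρ h v) := by
  rw [map_mul]; rfl

/-- The sum over a simple root subgroup. -/
noncomputable def sig (ρ : Representation k SL V) {i j : Fin n} (hij : i ≠ j) : Module.End k V :=
  ∑ a : F, ρ (xp hij a)

theorem sig_apply (ρ : Representation k SL V) {i j : Fin n} (hij : i ≠ j) (x : V) :
    sig ρ hij x = ∑ a : F, ρ (xp hij a) x := by simp [sig]

theorem sig_xp (ρ : Representation k SL V) {i j : Fin n} (hij : i ≠ j) (b : F) (x : V) :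
    sig ρ hij (ρ (xp hij b) x) = sig ρ hij x := by
  rw [sig_apply, sig_apply]
  exact Fintype.sum_equiv (Equiv.addRight b) _ _ fun a => by
    rw [Equiv.coe_addRight, xp_add, rho_mul]

/-- The span of the orbit of the lower unitriangular group. -/
noncomputable def loSpan (ρ : Representation k SL V) (v : V) : Submodule k V :=
  Submodule.span k (Set.range fun u : loSub F n => ρ (u : SL) v)

theorem loSpan_stable (ρ : Representation k SL V) (v : V) {u : SL} (hu : u ∈ loSub F n) {x : V}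
    (hx : x ∈ loSpan ρ v) : ρ u x ∈ loSpan ρ v := by
  induction hx using Submodule.span_induction with
  | mem x hx =>
    obtain ⟨w, rfl⟩ := hx
    exact Submodule.subset_span ⟨⟨u * w, mul_mem hu w.2⟩, rho_mul ρ u w v⟩
  | zero => rw [map_zero]; exact Submodule.zero_mem _
  | add a b _ _ ha hb => rw [map_add]; exact Submodule.add_mem _ ha hb
  | smul c a _ ha => rw [map_smul]; exact Submodule.smul_mem _ c ha

theorem self_mem_loSpan (ρ : Representation k SL V) (v : V) : v ∈ loSpan ρ v :=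
  Submodule.subset_span ⟨1, by simp⟩

theorem mem_of_simple {H : Subgroup SL} (hn : 2 ≤ n)
    (hp : ∀ (i j : Fin n) (hij : (i : ℕ) + 1 = j) (a : F), xp (adj_lt hij).ne a ∈ H)
    (hm : ∀ (i j : Fin n) (hij : (i : ℕ) + 1 = j) (a : F), xm (adj_lt hij).ne a ∈ H) : H = ⊤ := by
  haveI : Nontrivial (Fin n) := Fin.nontrivial_iff_two_le.2 hn
  have key : ∀ (d : ℕ) (i j : Fin n) (hij : i ≠ j), (i : ℕ) + (d + 1) = j →
      ∀ a : F, Matrix.SpecialLinearGroup.transvection hij a ∈ H ∧
        Matrix.SpecialLinearGroup.transvection hij.symm a ∈ H := by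
    intro d
    induction d with
    | zero =>
      intro i j hij hd a
      refine ⟨?_, ?_⟩
      · rw [transvection_eq_xp]; exact hp i j hd a
      · rw [transvection_eq_xm hij]; exact hm i j hd a
    | succ d ih =>
      intro i j hij hd a
      have hk : (i : ℕ) + 1 < n := by have := j.isLt; omega
      let l : Fin n := ⟨(i : ℕ) + 1, hk⟩
      have hil : i ≠ l := Fin.ne_of_val_ne (by simp [l])
      have hlj : l ≠ j := Fin.ne_of_val_ne (by simp [l]; omega)
      have h1 : ∀ b : F, Matrix.SpecialLinearGroup.transvection hil b ∈ H ∧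
          Matrix.SpecialLinearGroup.transvection hil.symm b ∈ H := fun b => by
        refine ⟨?_, ?_⟩
        · rw [transvection_eq_xp]; exact hp i l rfl b
        · rw [transvection_eq_xm hil]; exact hm i l rfl b
      have h2 := fun b : F => ih l j hlj (by simp [l]; omega) b
      constructor
      · have hc := Linear.commutator_transvection hij hil hlj a (1 : F)
        rw [mul_one, commutatorElement_def] at hc
        rw [← hc]
        exact mul_mem (mul_mem (mul_mem (h1 a).1 (h2 1).1) (inv_mem (h1 a).1)) (inv_mem (h2 1).1)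
      · have hc := Linear.commutator_transvection hij.symm hlj.symm hil.symm a (1 : F)
        rw [mul_one, commutatorElement_def] at hc
        rw [← hc]
        exact mul_mem (mul_mem (mul_mem (h2 a).2 (h1 1).2) (inv_mem (h2 a).2)) (inv_mem (h1 1).2)
  refine Linear.eq_top_of_transvection_mem fun i j hij a => ?_
  rcases lt_or_gt_of_ne hij with h | h
  · obtain ⟨d, hd⟩ : ∃ d, (i : ℕ) + (d + 1) = j := ⟨(j : ℕ) - i - 1, by rw [Fin.lt_def] at h; omega⟩
    exact (key d i j hij hd a).1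
  · obtain ⟨d, hd⟩ : ∃ d, (j : ℕ) + (d + 1) = i := ⟨(i : ℕ) - j - 1, by rw [Fin.lt_def] at h; omega⟩
    exact (key d j i hij.symm hd a).2

theorem sum_eq_zero_add_sum_units {A : Type*} [AddCommMonoid A] (f : F → A) :
    ∑ a, f a = f 0 + ∑ u : Fˣ, f (u : F) := by
  rw [← Finset.add_sum_erase _ _ (Finset.mem_univ (0 : F))]
  congr 1
  refine (Finset.sum_nbij' (s := (Finset.univ : Finset Fˣ)) (fun u => (u : F))
    (fun a => if h : a = 0 then 1 else Units.mk0 a h) ?_ ?_ ?_ ?_ ?_).symm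
  · intro u _; simp
  · intro a _; simp
  · intro u _; simp
  · intro a ha; simp only [Finset.mem_erase, Finset.coe_erase, Set.mem_diff, Set.mem_singleton_iff] at ha; simp_all
  · intro u _; rfl

theorem ww_apply_eq (ρ : Representation k SL V) {i j : Fin n} (hij : i ≠ j) {v : V}
    (hU : ∀ a : F, ρ (xp hij a) v = v) {μ : Fˣ → k}
    (hμ : ∀ u, ρ (hh hij u) v = μ u • v) {c : k} (hc : sig ρ hij (ρ (ww hij) v) = c • v) :
    ρ (ww hij) v = c • v - ∑ a : Fˣ, μ (-a) • ρ (xm hij ((a⁻¹ : Fˣ) : F)) v := by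
  classical
  rw [← hc, sig_apply, sum_eq_zero_add_sum_units, xp_zero, map_one, Module.End.one_apply,
    Finset.sum_congr rfl (g := fun a : Fˣ => μ (-a) • ρ (xm hij ((a⁻¹ : Fˣ) : F)) v) fun a _ => by
      rw [← rho_mul, xp_mul_ww, rho_mul, rho_mul, hU, hμ, map_smul],
    add_sub_cancel_right]

theorem transpose_mul' (a b : SL) : (a * b).transpose = b.transpose * a.transpose :=
  Subtype.ext (by
    show (((a * b : SL) : Matrix (Fin n) (Fin n) F))ᵀ =
      ((b.transpose * a.transpose : SL) : Matrix (Fin n) (Fin n) F)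
    rw [Matrix.SpecialLinearGroup.coe_mul, Matrix.SpecialLinearGroup.coe_mul, Matrix.transpose_mul]
    rfl)

theorem transpose_inv' (a : SL) : a⁻¹.transpose = (a.transpose)⁻¹ := by
  refine eq_inv_of_mul_eq_one_left ?_
  rw [← transpose_mul', mul_inv_cancel]
  exact Subtype.ext Matrix.transpose_one

theorem transpose_inv2 (a : Matrix.SpecialLinearGroup (Fin 2) F) :
    a⁻¹.transpose = (a.transpose)⁻¹ := by
  refine eq_inv_of_mul_eq_one_left ?_
  refine Subtype.ext ?_
  show ((a⁻¹ : Matrix.SpecialLinearGroup (Fin 2) F) : Matrix (Fin 2) (Fin 2) F)ᵀ *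
    (a : Matrix (Fin 2) (Fin 2) F)ᵀ = 1
  rw [← Matrix.transpose_mul, ← Matrix.SpecialLinearGroup.coe_mul, mul_inv_cancel,
    Matrix.SpecialLinearGroup.coe_one, Matrix.transpose_one]

theorem rootHom_conj_lo {i j : Fin n} (hij : (i : ℕ) + 1 = j)
    (A : Matrix.SpecialLinearGroup (Fin 2) F) {r : SL} (hr : r.transpose ∈ radSub hij) :
    (rootHom (adj_lt hij).ne A * r * (rootHom (adj_lt hij).ne A)⁻¹).transpose ∈ radSub hij := by
  rw [transpose_mul', transpose_mul', transpose_inv', rootHom_transpose]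
  have := rootHom_conj_radSub hij A.transpose⁻¹ hr
  rwa [map_inv, inv_inv, mul_assoc] at this

theorem exists_lo_decomp {i j : Fin n} (hij : (i : ℕ) + 1 = j) {u : SL} (hu : u ∈ loSub F n) :
    ∃ (b : F) (r : SL), r.transpose ∈ radSub hij ∧ u = r * xm (adj_lt hij).ne b := by
  refine ⟨(u.transpose : Matrix (Fin n) (Fin n) F) i j,
    u * xm (adj_lt hij).ne (-((u.transpose : Matrix (Fin n) (Fin n) F) i j)), ?_, ?_⟩
  · rw [transpose_mul', xm_transpose]
    exact xp_neg_mul_mem_radSub hij (mem_loSub.1 hu)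
  · rw [mul_assoc, ← xm_add, neg_add_cancel, xm_zero, mul_one]

/-- The hypotheses on a vector that make the span of its lower orbit invariant. -/
structure IsGood (ρ : Representation k SL V) (v : V) : Prop where
  fixed : ∀ u ∈ upSub F n, ρ u v = v
  torus : ∀ (i j : Fin n) (hij : (i : ℕ) + 1 = j) (u : Fˣ),
    ∃ s : k, ρ (hh (adj_lt hij).ne u) v = s • v
  weyl : ∀ (i j : Fin n) (hij : (i : ℕ) + 1 = j),
    ∃ c : k, sig ρ (adj_lt hij).ne (ρ (ww (adj_lt hij).ne) v) = c • v

theorem IsGood.stable {ρ : Representation k SL V} {v : V} (hv : IsGood ρ v) (hn : 2 ≤ n) (g : SL)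
    {x : V} (hx : x ∈ loSpan ρ v) : ρ g x ∈ loSpan ρ v := by
  classical
  set S := loSpan ρ v
  let T : Submonoid SL :=
    { carrier := {g | ∀ x ∈ S, ρ g x ∈ S}
      one_mem' := fun x hx => by simpa using hx
      mul_mem' := fun {a b} ha hb x hx => by rw [rho_mul]; exact ha _ (hb x hx) }
  let H : Subgroup SL :=
    { T with
      inv_mem' := fun {g} hg => by
        rw [show g⁻¹ = g ^ (orderOf g - 1) from inv_eq_of_mul_eq_one_right (by
          rw [← pow_succ', Nat.sub_add_cancel (orderOf_pos g), pow_orderOf_eq_one])]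
        exact T.pow_mem hg _ }
  suffices H = ⊤ from (this ▸ Subgroup.mem_top g : g ∈ H) x hx
  refine mem_of_simple hn (fun i j hij a => ?_)
    (fun i j hij a => fun x hx => loSpan_stable ρ v (xm_mem_loSub (adj_lt hij) a) hx)
  have hne := (adj_lt hij).ne
  have hU : ∀ a : F, ρ (xp hne a) v = v := fun a => hv.fixed _ (xp_mem_upSub (adj_lt hij) a)
  choose μ hμ using hv.torus i j hij
  obtain ⟨c, hc⟩ := hv.weyl i j hij
  have hw := ww_apply_eq ρ hne hU hμ hc
  -- the torus and the Weyl element at `v`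
  have hpp : ∀ b : F, ρ (xp hne a) (ρ (xm hne b) v) ∈ S := by
    intro b
    by_cases hu : 1 + a * b = 0
    · obtain ⟨a, rfl⟩ : ∃ a' : Fˣ, (a' : F) = a :=
        ⟨Units.mk0 a (fun h => by simp [h] at hu), rfl⟩
      have hb : b = -((a⁻¹ : Fˣ) : F) := by
        rw [Units.val_inv_eq_inv_val]
        field_simp
        linear_combination hu
      rw [← rho_mul, hb, xp_mul_xm_neg, rho_mul,
        rho_mul, hU, hw, map_sub, map_smul, map_sum, hμ]
      refine S.sub_mem (S.smul_mem _ (S.smul_mem _ (self_mem_loSpan ρ v))) (S.sum_mem fun t _ => ?_)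
      rw [map_smul]
      refine S.smul_mem _ ?_
      rw [← rho_mul, hh_mul_xm, rho_mul, hμ, map_smul]
      exact S.smul_mem _ (loSpan_stable ρ v (xm_mem_loSub (adj_lt hij) _) (self_mem_loSpan ρ v))
    · rw [← rho_mul, xp_mul_xm hne a b (Units.mk0 _ hu) rfl, rho_mul, rho_mul, hU, hμ, map_smul]
      exact S.smul_mem _ (loSpan_stable ρ v (xm_mem_loSub (adj_lt hij) _) (self_mem_loSpan ρ v))
  intro x hx
  induction hx using Submodule.span_induction with
  | mem x hx =>
    obtain ⟨⟨u, hu⟩, rfl⟩ := hx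
    show ρ (xp hne a) (ρ u v) ∈ S
    obtain ⟨b, r, hrT, hu'⟩ := exists_lo_decomp hij hu
    have hconj : (xp hne a * r * (xp hne a)⁻¹).transpose ∈ radSub hij :=
      rootHom_conj_lo hij (up2 a) hrT
    rw [hu', rho_mul, ← rho_mul ρ (xp hne a) r,
      show xp hne a * r = xp hne a * r * (xp hne a)⁻¹ * xp hne a by group, rho_mul]
    exact loSpan_stable ρ v (u := xp hne a * r * (xp hne a)⁻¹) hconj.1 (hpp b)
  | zero => rw [map_zero]; exact Submodule.zero_mem _
  | add a b _ _ ha hb => rw [map_add]; exact Submodule.add_mem _ ha hb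
  | smul c a _ ha => rw [map_smul]; exact Submodule.smul_mem _ c ha

section existence

variable (p : ℕ) [Fact p.Prime] [CharP F p] [CharP k p]

theorem exists_fixed_aux (ρ : Representation k SL V) [Nontrivial V] [Module (ZMod p) V]
    {Q : Subgroup SL} (hQ : IsPGroup p Q) : ∃ v : V, v ≠ 0 ∧ ∀ q ∈ Q, ρ q v = v := by
  obtain ⟨e₀, he₀⟩ := exists_ne (0 : V)
  let S := Submodule.span (ZMod p) (Set.range fun q : Q => ρ (q : SL) e₀)
  haveI : Module.Finite (ZMod p) S :=
    Module.Finite.span_of_finite (ZMod p) (Set.finite_range fun q : Q => ρ (q : SL) e₀)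
  haveI : Finite S := Module.finite_of_finite (ZMod p)
  haveI : Nontrivial S := by
    refine ⟨⟨⟨e₀, Submodule.subset_span ⟨1, by simp⟩⟩, 0, fun h => he₀ ?_⟩⟩
    exact congrArg Subtype.val h
  have hst : ∀ q : Q, ∀ x ∈ S, ρ (q : SL) x ∈ S := by
    intro q x hx
    induction hx using Submodule.span_induction with
    | mem x hx =>
      obtain ⟨r, rfl⟩ := hx
      exact Submodule.subset_span ⟨q * r, rho_mul ρ q r e₀⟩
    | zero => rw [map_zero]; exact S.zero_mem
    | add a b _ _ ha hb => rw [map_add]; exact S.add_mem ha hb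
    | smul c a _ ha => rw [ZMod.map_smul]; exact S.smul_mem c ha
  letI : MulAction Q S :=
    { smul := fun q x => ⟨ρ (q : SL) x.1, hst q x.1 x.2⟩
      one_smul := fun x => Subtype.ext (show ρ (1 : SL) x.1 = x.1 by simp)
      mul_smul := fun a b x => Subtype.ext (rho_mul ρ a b x.1) }
  have hcard : p ∣ Nat.card S := by
    rw [Module.natCard_eq_pow_finrank (K := ZMod p) (V := S), Nat.card_zmod]
    exact dvd_pow_self p Module.finrank_pos.ne'
  obtain ⟨x, hx, hne⟩ := hQ.exists_fixed_point_of_prime_dvd_card_of_fixed_point S hcard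
    (a := 0) (fun q => Subtype.ext (show ρ (q : SL) 0 = 0 by simp))
  exact ⟨x.1, fun h => hne (Subtype.ext h.symm), fun q hq => congrArg Subtype.val (hx ⟨q, hq⟩)⟩

theorem exists_fixed (ρ : Representation k SL V) [Nontrivial V] {Q : Subgroup SL}
    (hQ : IsPGroup p Q) : ∃ v : V, v ≠ 0 ∧ ∀ q ∈ Q, ρ q v = v := by
  have hp0 : ∀ x : V, p • x = 0 := fun x => by
    rw [← Nat.cast_smul_eq_nsmul k, CharP.cast_eq_zero, zero_smul]
  letI := AddCommGroup.zmodModule hp0
  exact exists_fixed_aux p ρ hQ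

theorem exists_fixed_eigen (p : ℕ) [Fact p.Prime] [CharP F p] [CharP k p] [IsAlgClosed k]
    [FiniteDimensional k V] (ρ : Representation k SL V) [Nontrivial V] :
    ∃ v : V, v ≠ 0 ∧ (∀ u ∈ upSub F n, ρ u v = v) ∧ ∀ d ∈ diagSub F n, ∃ e : k, ρ d v = e • v := by
  obtain ⟨v₀, hv₀, hfix⟩ := exists_fixed p ρ (isPGroup_upSub (F := F) (n := n) p)
  let Good : Submodule k V → Prop := fun W => W ≠ ⊥ ∧ (∀ x ∈ W, ∀ u ∈ upSub F n, ρ u x = x) ∧
    ∀ d ∈ diagSub F n, ∀ x ∈ W, ρ d x ∈ W
  let W0 : Submodule k V :=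
    { carrier := {x | ∀ u ∈ upSub F n, ρ u x = x}
      zero_mem' := fun u _ => map_zero _
      add_mem' := fun ha hb u hu => by rw [map_add, ha u hu, hb u hu]
      smul_mem' := fun c x hx u hu => by rw [map_smul, hx u hu] }
  have hW0 : Good W0 := by
    refine ⟨fun h => hv₀ ((Submodule.mem_bot k).1 (h ▸ (hfix : v₀ ∈ W0))), fun x hx => hx, ?_⟩
    intro d hd x hx u hu
    rw [← rho_mul, show u * d = d * (d⁻¹ * u * d⁻¹⁻¹) by group, rho_mul,
      hx _ (diag_conj_upSub (inv_mem hd) hu)]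
  obtain ⟨W, hW, hmin⟩ := wellFounded_lt.has_min {W | Good W} ⟨W0, hW0⟩
  obtain ⟨v, hv, hv0⟩ := Submodule.exists_mem_ne_zero_of_ne_bot hW.1
  refine ⟨v, hv0, hW.2.1 v hv, fun d hd => ?_⟩
  let f : Module.End k W := (ρ d).restrict (hW.2.2 d hd)
  haveI : Nontrivial W := Submodule.nontrivial_iff_ne_bot.2 hW.1
  obtain ⟨e, he⟩ := Module.End.exists_eigenvalue f
  obtain ⟨w, hw⟩ := he.exists_hasEigenvector
  have hwe : ρ d (w : V) = e • (w : V) := congrArg Subtype.val hw.apply_eq_smul
  let W' : Submodule k V := W ⊓ Module.End.eigenspace (ρ d) e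
  have hle : W' ≤ W := inf_le_left
  have hgood : Good W' := by
    refine ⟨fun h => hw.2 ?_, fun x hx => hW.2.1 x (hle hx), fun t ht x hx => ⟨hW.2.2 t ht x (hle hx), ?_⟩⟩
    · have hm : (w : V) ∈ W' := ⟨w.2, Module.End.mem_eigenspace_iff.2 hwe⟩
      rw [h, Submodule.mem_bot] at hm
      exact Subtype.ext hm
    · refine Module.End.mem_eigenspace_iff.2 ?_
      rw [← rho_mul, diag_comm hd ht, rho_mul, Module.End.mem_eigenspace_iff.1 hx.2, map_smul]
  have heq : W' = W := (hle.lt_or_eq).resolve_left (hmin W' hgood)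
  exact ⟨e, Module.End.mem_eigenspace_iff.1 (heq ▸ hv : v ∈ W').2⟩

variable {p}

/-- Right translation twisted by a conjugation on cosets of the unitriangular group. -/
noncomputable def conjCoset (h : SL) {h' : SL} (hh' : h' ∈ diagSub F n) :
    SL ⧸ upSub F n → SL ⧸ upSub F n :=
  Quotient.map' (fun y => h * y * h'⁻¹) fun a b hab => by
    rw [QuotientGroup.leftRel_apply] at hab ⊢
    rw [show (h * a * h'⁻¹)⁻¹ * (h * b * h'⁻¹) = h' * (a⁻¹ * b) * h'⁻¹ by group]
    exact diag_conj_upSub hh' hab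

theorem conjCoset_mk (h : SL) {h' : SL} (hh' : h' ∈ diagSub F n) (y : SL) :
    conjCoset h hh' (y : SL ⧸ upSub F n) = ((h * y * h'⁻¹ : SL) : SL ⧸ upSub F n) := rfl

theorem conjCoset_injective (h : SL) {h' : SL} (hh' : h' ∈ diagSub F n) :
    Function.Injective (conjCoset h hh') := by
  intro a b hab
  obtain ⟨a, rfl⟩ := QuotientGroup.mk_surjective a
  obtain ⟨b, rfl⟩ := QuotientGroup.mk_surjective b
  rw [conjCoset_mk, conjCoset_mk, QuotientGroup.eq] at hab
  rw [QuotientGroup.eq]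
  have := diag_conj_upSub (inv_mem hh') hab
  simpa [mul_assoc] using this

/-- The map on cosets attached to a fixed vector. -/
noncomputable def cosetVec (ρ : Representation k SL V) (v₀ : V)
    (hU : ∀ u ∈ upSub F n, ρ u v₀ = v₀) : SL ⧸ upSub F n → V :=
  fun x => Quotient.liftOn' x (fun g => ρ g v₀) fun a b hab => by
    rw [QuotientGroup.leftRel_apply] at hab
    conv_rhs => rw [show b = a * (a⁻¹ * b) by group]
    rw [rho_mul, hU _ hab]

theorem cosetVec_mk (ρ : Representation k SL V) (v₀ : V) (hU : ∀ u ∈ upSub F n, ρ u v₀ = v₀)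
    (g : SL) : cosetVec ρ v₀ hU (g : SL ⧸ upSub F n) = ρ g v₀ := rfl

theorem cosetVec_smul (ρ : Representation k SL V) (v₀ : V) (hU : ∀ u ∈ upSub F n, ρ u v₀ = v₀)
    (a : SL) (x : SL ⧸ upSub F n) : cosetVec ρ v₀ hU (a • x) = ρ a (cosetVec ρ v₀ hU x) := by
  obtain ⟨x, rfl⟩ := QuotientGroup.mk_surjective x
  exact rho_mul ρ a x v₀

/-- The orbit of a coset under a subgroup. -/
noncomputable def cosetOrb (K : Subgroup SL) (g : SL) : Finset (SL ⧸ upSub F n) :=
  Finset.univ.filter fun x => ∃ a ∈ K, x = a • (g : SL ⧸ upSub F n)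

theorem mem_cosetOrb {K : Subgroup SL} {g : SL} {x : SL ⧸ upSub F n} :
    x ∈ cosetOrb K g ↔ ∃ a ∈ K, x = a • (g : SL ⧸ upSub F n) := by
  unfold cosetOrb
  rw [Finset.mem_filter]
  exact and_iff_right (Finset.mem_univ _)

theorem smul_cosetOrb {K : Subgroup SL} {g a : SL}
    (ha : ∀ r ∈ K, ∃ r' ∈ K, (a * r) • (g : SL ⧸ upSub F n) = r' • (g : SL ⧸ upSub F n)) :
    (cosetOrb K g).image (fun x => a • x) = cosetOrb K g := by
  refine Finset.eq_of_subset_of_card_le (fun x hx => ?_)
    (Finset.card_image_of_injective _ (MulAction.injective a)).ge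
  obtain ⟨y, hy, rfl⟩ := Finset.mem_image.1 hx
  obtain ⟨r, hr, rfl⟩ := mem_cosetOrb.1 hy
  obtain ⟨r', hr', he⟩ := ha r hr
  exact mem_cosetOrb.2 ⟨r', hr', by rw [smul_smul, he]⟩

theorem sum_cosetOrb_fixed (ρ : Representation k SL V) (v₀ : V)
    (hU : ∀ u ∈ upSub F n, ρ u v₀ = v₀) {K : Subgroup SL} {g a : SL}
    (ha : ∀ r ∈ K, ∃ r' ∈ K, (a * r) • (g : SL ⧸ upSub F n) = r' • (g : SL ⧸ upSub F n)) :
    ρ a (∑ x ∈ cosetOrb K g, cosetVec ρ v₀ hU x) = ∑ x ∈ cosetOrb K g, cosetVec ρ v₀ hU x := by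
  conv_rhs => rw [← smul_cosetOrb ha, Finset.sum_image (MulAction.injective a).injOn]
  rw [map_sum]
  exact Finset.sum_congr rfl fun x _ => (cosetVec_smul ρ v₀ hU a x).symm

theorem sum_cosetOrb_eigen (ρ : Representation k SL V) (v₀ : V)
    (hU : ∀ u ∈ upSub F n, ρ u v₀ = v₀) {K : Subgroup SL} {g h h' : SL} (hh' : h' ∈ diagSub F n)
    (hg : h * g = g * h') (hK : ∀ r ∈ K, h * r * h⁻¹ ∈ K) {e : k} (he : ρ h' v₀ = e • v₀) :
    ρ h (∑ x ∈ cosetOrb K g, cosetVec ρ v₀ hU x) =
      e • ∑ x ∈ cosetOrb K g, cosetVec ρ v₀ hU x := by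
  have himg : (cosetOrb K g).image (conjCoset h hh') = cosetOrb K g := by
    refine Finset.eq_of_subset_of_card_le (fun x hx => ?_)
      (Finset.card_image_of_injective _ (conjCoset_injective h hh')).ge
    obtain ⟨y, hy, rfl⟩ := Finset.mem_image.1 hx
    obtain ⟨r, hr, rfl⟩ := mem_cosetOrb.1 hy
    refine mem_cosetOrb.2 ⟨_, hK r hr, ?_⟩
    show (((h * (r * g) * h'⁻¹ : SL)) : SL ⧸ upSub F n) =
      (((h * r * h⁻¹) * g : SL) : SL ⧸ upSub F n)
    congr 1
    calc h * (r * g) * h'⁻¹ = h * r * h⁻¹ * (h * g) * h'⁻¹ := by group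
      _ = h * r * h⁻¹ * g := by rw [hg]; group
  rw [map_sum, Finset.smul_sum]
  conv_rhs => rw [← himg, Finset.sum_image (conjCoset_injective h hh').injOn]
  refine Finset.sum_congr rfl fun x _ => ?_
  obtain ⟨y, rfl⟩ := QuotientGroup.mk_surjective x
  rw [conjCoset_mk, cosetVec_mk, cosetVec_mk, ← rho_mul, show h * y = h * y * h'⁻¹ * h' by group,
    rho_mul, he, map_smul]
  rw [mul_inv_cancel_right]

theorem smul_mk_eq (a g : SL) :
    ((a * g : SL) : SL ⧸ upSub F n) = a • (g : SL ⧸ upSub F n) :=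
  (MulAction.Quotient.smul_mk _ a g).symm

theorem exists_vector (p : ℕ) [Fact p.Prime] [CharP F p] [CharP k p] [IsAlgClosed k]
    [FiniteDimensional k V] (ρ : Representation k SL V) [Nontrivial V] :
    ∃ v : V, v ≠ 0 ∧ (∀ u ∈ upSub F n, ρ u v = v) ∧
      ∀ (i j : Fin n) (hij : (i : ℕ) + 1 = j), ∃ μ : Fˣ → k,
        (∀ u, ρ (hh (adj_lt hij).ne u) v = μ u • v) ∧
        ∃ c : k, sig ρ (adj_lt hij).ne (ρ (ww (adj_lt hij).ne) v) = c • v ∧
          (c = 0 ∨ c = ∑ u : Fˣ, μ u) := by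
  obtain ⟨v₀, hv₀, hU, hD⟩ := exists_fixed_eigen p ρ
  let T : SL → V := fun g => ∑ x ∈ cosetOrb (upSub F n) g, cosetVec ρ v₀ hU x
  let Ms : Finset SL := Finset.univ.filter fun g => (∃ w, IsMono g w) ∧ T g ≠ 0
  have h1 : (1 : SL) ∈ Ms := by
    refine Finset.mem_filter.2 ⟨Finset.mem_univ _, ⟨1, isMono_one⟩, ?_⟩
    have : cosetOrb (upSub F n) (1 : SL) = {((1 : SL) : SL ⧸ upSub F n)} := by
      ext x
      rw [mem_cosetOrb, Finset.mem_singleton]
      constructor
      · rintro ⟨a, ha, rfl⟩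
        show ((a * 1 : SL) : SL ⧸ upSub F n) = _
        rw [mul_one, QuotientGroup.eq, mul_one]
        exact inv_mem ha
      · exact fun h => ⟨1, one_mem _, by rw [h, one_smul]⟩
    simp only [T, this, Finset.sum_singleton, cosetVec_mk, map_one]
    exact hv₀
  obtain ⟨g, hgM, hmax⟩ := Finset.exists_max_image Ms (fun g => (cosetOrb (upSub F n) g).card) ⟨1, h1⟩
  obtain ⟨⟨w, hw⟩, hT⟩ := (Finset.mem_filter.1 hgM).2
  have hTfix : ∀ u ∈ upSub F n, ρ u (T g) = T g := fun u hu =>
    sum_cosetOrb_fixed ρ v₀ hU fun r hr => ⟨u * r, mul_mem hu hr, rfl⟩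
  refine ⟨T g, hT, hTfix, fun i j hij => ?_⟩
  have hlt := adj_lt hij
  have hne := hlt.ne
  -- the torus
  have hh' : ∀ u : Fˣ, g⁻¹ * hh hne u * g ∈ diagSub F n := fun u =>
    hw.conj_diag (hh_mem_diagSub hne u)
  choose μ hμ using fun u => hD _ (hh' u)
  have heig : ∀ (K : Subgroup SL), (∀ d ∈ diagSub F n, ∀ r ∈ K, d * r * d⁻¹ ∈ K) → ∀ u,
      ρ (hh hne u) (∑ x ∈ cosetOrb K g, cosetVec ρ v₀ hU x) =
        μ u • ∑ x ∈ cosetOrb K g, cosetVec ρ v₀ hU x := fun K hK u =>
    sum_cosetOrb_eigen ρ v₀ hU (hh' u) (by group) (fun r hr => hK _ (hh_mem_diagSub hne u) r hr)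
      (hμ u)
  refine ⟨μ, fun u => heig _ (fun d hd r hr => diag_conj_upSub hd hr) u, ?_⟩
  have hnw : ∀ r ∈ radSub (F := F) hij, ww hne * r * (ww hne)⁻¹ ∈ radSub hij :=
    fun r hr => rootHom_conj_radSub hij _ hr
  have hnw' : ∀ r ∈ radSub (F := F) hij, (ww hne)⁻¹ * r * ww hne ∈ radSub hij := fun r hr => by
    have := rootHom_conj_radSub hij wy2⁻¹ hr
    rwa [map_inv, inv_inv] at this
  have hdec : ∀ a ∈ upSub F n, ∃ b : F, ∃ r ∈ radSub hij, a = xp hne b * r := fun a ha =>
    ⟨(a : Matrix (Fin n) (Fin n) F) i j, _, xp_neg_mul_mem_radSub hij ha, by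
      rw [← mul_assoc, ← xp_add, add_neg_cancel, xp_zero, one_mul]⟩
  have hxR : ∀ (b : F), ∀ r ∈ radSub hij, xp hne b * r * (xp hne b)⁻¹ ∈ radSub hij :=
    fun b r hr => rootHom_conj_radSub hij _ hr
  rcases lt_or_gt_of_ne (w.symm.injective.ne hne) with hA | hB
  · -- the root subgroup fixes the coset
    have hfix : ∀ b : F, (xp hne b) • (g : SL ⧸ upSub F n) = (g : SL ⧸ upSub F n) := fun b => by
      show ((xp hne b * g : SL) : SL ⧸ upSub F n) = _
      rw [QuotientGroup.eq]
      have h2 := hw.conj_xp hne hA (-b)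
      have h3 : (xp hne b * g)⁻¹ * g = g⁻¹ * xp hne (-b) * g := by
        rw [show xp hne (-b) = (xp hne b)⁻¹ from eq_inv_of_mul_eq_one_left (by
          rw [← xp_add, neg_add_cancel, xp_zero])]
        group
      rw [h3]; exact h2
    have horb : cosetOrb (upSub F n) g = cosetOrb (radSub hij) g := by
      ext x
      rw [mem_cosetOrb, mem_cosetOrb]
      constructor
      · rintro ⟨a, ha, rfl⟩
        obtain ⟨b, r, hr, rfl⟩ := hdec a ha
        refine ⟨_, hxR b r hr, ?_⟩
        conv_rhs => rw [← hfix b, smul_smul, inv_mul_cancel_right]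
      · rintro ⟨a, ha, rfl⟩; exact ⟨a, ha.1, rfl⟩
    let Φ : F × (SL ⧸ upSub F n) → SL ⧸ upSub F n := fun z => (xp hne z.1 * ww hne) • z.2
    have hinj : Set.InjOn Φ ↑((Finset.univ : Finset F) ×ˢ cosetOrb (upSub F n) g) := by
      rintro ⟨a, x⟩ hx ⟨a', x'⟩ hx' he
      simp only [Finset.coe_product, Set.mem_prod, Finset.mem_coe] at hx hx'
      rw [horb] at hx hx'
      obtain ⟨r, hr, rfl⟩ := mem_cosetOrb.1 hx.2
      obtain ⟨r', hr', rfl⟩ := mem_cosetOrb.1 hx'.2
      simp only [Φ, smul_smul] at he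
      have h2 : g⁻¹ * ((xp hne a' * ww hne * r')⁻¹ * (xp hne a * ww hne * r)) * g ∈ upSub F n := by
        have h3 := QuotientGroup.eq.1 (he.symm : ((_ : SL) : SL ⧸ upSub F n) = _)
        simpa [mul_assoc] using h3
      have hxw : (ww hne)⁻¹ * xp hne (a - a') * ww hne = xm hne (a' - a) := by
        have h4 := ww_mul_xm hne (a' - a)
        rw [neg_sub] at h4
        rw [mul_assoc, ← h4, inv_mul_cancel_left]
      have h5 : (xp hne a' * ww hne * r')⁻¹ * (xp hne a * ww hne * r) =
          r'⁻¹ * xm hne (a' - a) * r := by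
        rw [← hxw, sub_eq_neg_add a a', xp_add,
          show xp hne (-a') = (xp hne a')⁻¹ from eq_inv_of_mul_eq_one_left (by
            rw [← xp_add, neg_add_cancel, xp_zero])]
        group
      rw [h5] at h2
      -- the entry at the lower root
      set q := xm hne (a' - a) with hq
      have hr'' : q⁻¹ * r'⁻¹ * q ∈ radSub hij := by
        have := rootHom_conj_radSub hij (lo2 (a' - a))⁻¹ (inv_mem hr')
        rwa [map_inv, inv_inv] at this
      have h6 := hw.conj_apply_eq_zero h2 hA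
      rw [show r'⁻¹ * q * r = q * ((q⁻¹ * r'⁻¹ * q) * r) by group] at h6
      have hR := mul_mem hr'' hr
      rw [Matrix.SpecialLinearGroup.coe_mul, xm_eq, Matrix.add_mul, Matrix.one_mul, Matrix.add_apply,
        upSub_lt hR.1 hlt, Matrix.single_mul_apply_same, upSub_diag hR.1, zero_add, mul_one,
        sub_eq_zero] at h6
      subst h6
      refine Prod.ext rfl ?_
      have h7 : (xp hne a' * ww hne) • (r • (g : SL ⧸ upSub F n)) =
          (xp hne a' * ww hne) • (r' • (g : SL ⧸ upSub F n)) := by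
        rw [smul_smul, smul_smul]; exact he
      exact MulAction.injective _ h7
    have himg : ((Finset.univ : Finset F) ×ˢ cosetOrb (upSub F n) g).image Φ =
        cosetOrb (upSub F n) (ww hne * g) := by
      ext x
      rw [Finset.mem_image, mem_cosetOrb]
      constructor
      · rintro ⟨⟨a, y⟩, hy, rfl⟩
        obtain ⟨r, hr, rfl⟩ := mem_cosetOrb.1 (horb ▸ (Finset.mem_product.1 hy).2)
        refine ⟨xp hne a * (ww hne * r * (ww hne)⁻¹),
          mul_mem (xp_mem_upSub hlt a) (hnw r hr).1, ?_⟩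
        show (xp hne a * ww hne) • r • (g : SL ⧸ upSub F n) =
          (xp hne a * (ww hne * r * (ww hne)⁻¹)) • ((ww hne * g : SL) : SL ⧸ upSub F n)
        rw [smul_mk_eq, smul_smul, smul_smul]
        congr 1
        group
      · rintro ⟨a, ha, rfl⟩
        obtain ⟨b, r, hr, rfl⟩ := hdec a ha
        refine ⟨(b, ((ww hne)⁻¹ * r * ww hne) • (g : SL ⧸ upSub F n)),
          Finset.mem_product.2 ⟨Finset.mem_univ _, mem_cosetOrb.2 ⟨_, (hnw' r hr).1, rfl⟩⟩, ?_⟩
        show (xp hne b * ww hne) • _ • (g : SL ⧸ upSub F n) = _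
        rw [smul_mk_eq, smul_smul, smul_smul]
        congr 1
        group
    have hcard : (cosetOrb (upSub F n) (ww hne * g)).card =
        Fintype.card F * (cosetOrb (upSub F n) g).card := by
      rw [← himg, Finset.card_image_of_injOn hinj, Finset.card_product, Finset.card_univ]
    have hTn : T (ww hne * g) = 0 := by
      by_contra h0
      have hm : ww hne * g ∈ Ms :=
        Finset.mem_filter.2 ⟨Finset.mem_univ _, ⟨_, (isMono_ww hne).mul hw⟩, h0⟩
      have := hmax _ hm
      rw [hcard] at this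
      have hpos : 0 < (cosetOrb (upSub F n) g).card :=
        Finset.card_pos.2 ⟨_, mem_cosetOrb.2 ⟨1, one_mem _, (one_smul _ _).symm⟩⟩
      have h2 : 1 < Fintype.card F := Fintype.one_lt_card
      nlinarith
    refine ⟨0, ?_, Or.inl rfl⟩
    rw [zero_smul, ← hTn]
    simp only [T]
    rw [← himg, Finset.sum_image hinj, Finset.sum_product, sig_apply]
    refine Finset.sum_congr rfl fun a _ => ?_
    simp only [map_sum, Φ, cosetVec_smul, rho_mul]
  · -- the orbit splits along the root subgroup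
    let Y : V := ∑ x ∈ cosetOrb (radSub hij) g, cosetVec ρ v₀ hU x
    let Φ : F × (SL ⧸ upSub F n) → SL ⧸ upSub F n := fun z => xp hne z.1 • z.2
    have hinj : Set.InjOn Φ ↑((Finset.univ : Finset F) ×ˢ cosetOrb (radSub hij) g) := by
      rintro ⟨a, x⟩ hx ⟨a', x'⟩ hx' he
      simp only [Finset.coe_product, Set.mem_prod, Finset.mem_coe] at hx hx'
      obtain ⟨r, hr, rfl⟩ := mem_cosetOrb.1 hx.2
      obtain ⟨r', hr', rfl⟩ := mem_cosetOrb.1 hx'.2
      simp only [Φ, smul_smul] at he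
      have h2 : g⁻¹ * ((xp hne a' * r')⁻¹ * (xp hne a * r)) * g ∈ upSub F n := by
        have h3 := QuotientGroup.eq.1 (he.symm : ((_ : SL) : SL ⧸ upSub F n) = _)
        simpa [mul_assoc] using h3
      have h6 := hw.conj_apply_eq_zero h2 hB
      rw [_root_.mul_inv_rev, mul_assoc, ← mul_assoc (xp hne a')⁻¹,
        show (xp hne a')⁻¹ * xp hne a = xp hne (a - a') by
          rw [inv_mul_eq_iff_eq_mul, ← xp_add, add_sub_cancel],
        upSub_add_adj (inv_mem hr'.1) (mul_mem (xp_mem_upSub hlt _) hr.1) hij,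
        upSub_add_adj (xp_mem_upSub hlt _) hr.1 hij, hr.2, (inv_mem hr').2, xp_eq] at h6
      simp only [Matrix.add_apply, Matrix.one_apply_ne hne, Matrix.single_apply_same, zero_add,
        add_zero, sub_eq_zero] at h6
      subst h6
      refine Prod.ext rfl ?_
      rw [← smul_smul, ← smul_smul] at he
      exact MulAction.injective _ he
    have himg : ((Finset.univ : Finset F) ×ˢ cosetOrb (radSub hij) g).image Φ = cosetOrb (upSub F n) g := by
      ext x
      rw [Finset.mem_image, mem_cosetOrb]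
      constructor
      · rintro ⟨⟨a, y⟩, hy, rfl⟩
        obtain ⟨r, hr, rfl⟩ := mem_cosetOrb.1 (Finset.mem_product.1 hy).2
        exact ⟨_, mul_mem (xp_mem_upSub hlt a) hr.1, smul_smul _ _ _⟩
      · rintro ⟨a, ha, rfl⟩
        obtain ⟨b, r, hr, rfl⟩ := hdec a ha
        exact ⟨(b, r • (g : SL ⧸ upSub F n)),
          Finset.mem_product.2 ⟨Finset.mem_univ _, mem_cosetOrb.2 ⟨_, hr, rfl⟩⟩, smul_smul _ _ _⟩
    have hTY : T g = sig ρ hne Y := by
      simp only [T, Y]
      rw [← himg, Finset.sum_image hinj, Finset.sum_product, sig_apply]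
      refine Finset.sum_congr rfl fun a _ => ?_
      simp only [map_sum, Φ, cosetVec_smul]
    have hmY : ∀ c : F, ρ (xm hne c) Y = Y := fun c => by
      refine sum_cosetOrb_fixed ρ v₀ hU fun r hr =>
        ⟨_, rootHom_conj_radSub hij (lo2 c) hr, ?_⟩
      show (xm hne c * r) • (g : SL ⧸ upSub F n) =
        (xm hne c * r * (xm hne c)⁻¹) • (g : SL ⧸ upSub F n)
      have hfix : (xm hne c) • (g : SL ⧸ upSub F n) = (g : SL ⧸ upSub F n) := by
        show ((xm hne c * g : SL) : SL ⧸ upSub F n) = _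
        rw [QuotientGroup.eq]
        have h2 := hw.conj_xm hne hB (-c)
        have h3 : (xm hne c * g)⁻¹ * g = g⁻¹ * xm hne (-c) * g := by
          rw [show xm hne (-c) = (xm hne c)⁻¹ from eq_inv_of_mul_eq_one_left (by
            rw [← xm_add, neg_add_cancel, xm_zero])]
          group
        rw [h3]; exact h2
      conv_rhs => rw [← hfix, smul_smul, inv_mul_cancel_right]
    have hhY : ∀ u, ρ (hh hne u) Y = μ u • Y := heig _ fun d hd r hr => diag_conj_radSub hd hij hr
    refine ⟨∑ u : Fˣ, μ u, ?_, Or.inr rfl⟩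
    show sig ρ hne (ρ (ww hne) (T g)) = (∑ u : Fˣ, μ u) • T g
    rw [hTY, sig_apply ρ hne Y, map_sum, map_sum, sum_eq_zero_add_sum_units]
    have h0 : sig ρ hne (ρ (ww hne) (ρ (xp hne (0 : F)) Y)) = 0 := by
      rw [xp_zero, map_one, Module.End.one_apply, sig_apply,
        Finset.sum_congr rfl (g := fun _ => ρ (ww hne) Y) fun a _ => by
          rw [← rho_mul, ← neg_neg a, ← ww_mul_xm, rho_mul, hmY],
        Finset.sum_const, Finset.card_univ, ← Nat.cast_smul_eq_nsmul k]
      obtain ⟨e, hpe, he⟩ := FiniteField.card F p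
      rw [he, Nat.cast_pow, CharP.cast_eq_zero k p, zero_pow e.ne_zero, zero_smul]
    rw [h0, zero_add, ← sig_apply ρ hne Y, Finset.sum_smul]
    refine (Fintype.sum_equiv ((Equiv.neg Fˣ).trans (Equiv.inv Fˣ)) _ _ fun u => ?_).symm
    show _ = sig ρ hne (ρ (ww hne) (ρ (xp hne (((-u)⁻¹ : Fˣ) : F)) Y))
    rw [← rho_mul, ww_mul_xp, rho_mul, rho_mul, hmY, sig_xp, hhY, map_smul]
    simp

end existence

end Cfsg.Agent.Chars2.SLDef
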